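import Cfsg.Agent.M24Geo.DataBase

/-! `M24` is 5-transitive on points and transitive on octads and dodecads. -/

set_option autoImplicit false

namespace Cfsg.Agent.M24Geo

open scoped Pointwise
open Cfsg


/-- The pointwise stabiliser in `M24` of the points at positions below `n`. -/
def fixPts (n : ℕ) : Subgroup (Equiv.Perm GolayPt) :=
  M24 ⊓ fixingSubgroup (Equiv.Perm GolayPt) {p | idx p < n}

theorem mem_fixPts {n : ℕ} {g : Equiv.Perm GolayPt} :
    g ∈ fixPts n ↔ g ∈ M24 ∧ ∀ i < n, i < 24 → g (pt i) = pt i := by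
  simp only [fixPts, Subgroup.mem_inf, mem_fixingSubgroup_iff, Set.mem_ofPred_eq]
  refine and_congr_right fun _ => ⟨fun h i hi h24 => h (pt i) (by rwa [idx_pt i h24]), fun h p hp => ?_⟩
  have := h (idx p) hp (idx_lt p)
  rw [pt_idx] at this
  exact this

/-- The list fixes the positions below `n`. -/
def fixL (n : ℕ) (l : List ℕ) : Bool := (List.range n).all fun i => l.getD i 0 == i

theorem permOf_mem_fixPts {n : ℕ} {gens : List (List ℕ)} (h : gens.all autL = true)
    (h' : gens.all (fixL n) = true) : ∀ l ∈ gens, permOf l ∈ fixPts n := by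
  intro l hl
  refine mem_fixPts.mpr ⟨gens_le_M24 h l hl, fun i hi h24 => ?_⟩
  have hv : validL l = true := by
    have := List.all_eq_true.mp h l hl
    simp only [autL, Bool.and_eq_true] at this
    exact this.1
  have := List.all_eq_true.mp (List.all_eq_true.mp h' l hl) i (List.mem_range.mpr hi)
  rw [permOf_pt hv h24, show l.getD i 0 = i by simpa using this]

theorem base_step {n : ℕ} {gens : List (List ℕ)} {T : OT}
    (hT : T.check stepMask gens [2 ^ n] = true) (h : gens.all autL = true)
    (h' : gens.all (fixL n) = true)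
    (hall : (List.range' n (24 - n)).all (fun j => (T.find (2 ^ j)).isSome) = true) (hn : n < 24)
    (p : GolayPt) (hp : n ≤ idx p) : ∃ g ∈ fixPts n, g (pt n) = p := by
  have h24 := idx_lt p
  have hmem := OT.mem_keys_of_isSome
    (List.all_eq_true.mp hall (idx p) (List.mem_range'_1.mpr ⟨hp, by omega⟩))
  obtain ⟨r, hr, g, hg, hge⟩ :=
    orbit_cert stepMask_sound hT h (fixPts n) (permOf_mem_fixPts h h') _ hmem
  obtain rfl : r = 2 ^ n := by simpa using hr
  refine ⟨g, hg, ?_⟩
  have single : ∀ i < 24, ofMask (2 ^ i) = {pt i} := by decide +kernel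
  rw [single n hn, single _ h24, pt_idx] at hge
  simpa using hge

theorem fixPts_trans {n : ℕ} (hn : n < 5) (p : GolayPt) (hp : n ≤ idx p) :
    ∃ g ∈ fixPts n, g (pt n) = p := by
  interval_cases n
  · exact base_step (gens := base0Gens) (T := base0Tree) (by decide +kernel) (by decide +kernel)
      (by decide +kernel) (by decide +kernel) (by norm_num) p hp
  · exact base_step (gens := base1Gens) (T := base1Tree) (by decide +kernel) (by decide +kernel)
      (by decide +kernel) (by decide +kernel) (by norm_num) p hp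
  · exact base_step (gens := base2Gens) (T := base2Tree) (by decide +kernel) (by decide +kernel)
      (by decide +kernel) (by decide +kernel) (by norm_num) p hp
  · exact base_step (gens := base3Gens) (T := base3Tree) (by decide +kernel) (by decide +kernel)
      (by decide +kernel) (by decide +kernel) (by norm_num) p hp
  · exact base_step (gens := base4Gens) (T := base4Tree) (by decide +kernel) (by decide +kernel)
      (by decide +kernel) (by decide +kernel) (by norm_num) p hp

/-- Transitivity of `M24` on sequences of at most five distinct points. -/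
theorem trans_tuple : ∀ n ≤ 5, ∀ a : ℕ → GolayPt,
    (∀ i < n, ∀ j < n, a i = a j → i = j) → ∃ g ∈ M24, ∀ i < n, g (pt i) = a i := by
  intro n
  induction n with
  | zero => exact fun _ a _ => ⟨1, one_mem _, fun i hi => absurd hi (Nat.not_lt_zero i)⟩
  | succ n ih =>
    intro hn a ha
    obtain ⟨g, hg, hga⟩ := ih (by omega) a fun i hi j hj => ha i (by omega) j (by omega)
    have hinv : g (g⁻¹ (a n)) = a n := g.apply_symm_apply _
    have hp : n ≤ idx (g⁻¹ (a n)) := by
      by_contra hlt
      rw [not_le] at hlt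
      have h1 := hga _ hlt
      rw [pt_idx, hinv] at h1
      have := ha _ (by omega) _ (by omega) h1
      omega
    obtain ⟨h, hh, hhe⟩ := fixPts_trans (by omega) _ hp
    rw [mem_fixPts] at hh
    refine ⟨g * h, mul_mem hg hh.1, fun i hi => ?_⟩
    rw [Equiv.Perm.mul_apply]
    rcases Nat.lt_succ_iff_lt_or_eq.mp hi with hi' | rfl
    · rw [hh.2 i hi' (by omega), hga i hi']
    · rw [hhe, hinv]

/-- The first `n` positions, as a mask. -/
theorem ofMask_init_eq : ∀ n ≤ 5, ofMask (2 ^ n - 1) = ((List.range n).map pt).toFinset := by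
  decide +kernel

/-- Transitivity of `M24` on subsets of at most five points. -/
theorem trans_subset (s : Finset GolayPt) (hs : s.card ≤ 5) :
    ∃ g ∈ M24, g • ofMask (2 ^ s.card - 1) = s := by
  obtain ⟨g, hg, hga⟩ := trans_tuple s.card hs (fun i => s.toList.getD i none) fun i hi j hj h => by
    rw [List.getD_eq_getElem _ _ (by simpa using hi), List.getD_eq_getElem _ _ (by simpa using hj)] at h
    exact (List.Nodup.getElem_inj_iff s.nodup_toList).mp h
  refine ⟨g, hg, ?_⟩
  rw [ofMask_init_eq _ hs]
  ext p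
  simp only [Finset.mem_smul_finset, List.mem_toFinset, List.mem_map, List.mem_range]
  constructor
  · rintro ⟨_, ⟨i, hi, rfl⟩, rfl⟩
    show g (pt i) ∈ s
    rw [hga i hi, List.getD_eq_getElem _ _ (by simpa using hi), ← Finset.mem_toList]
    exact List.getElem_mem _
  · intro hp
    obtain ⟨i, hi, hip⟩ := List.getElem_of_mem (Finset.mem_toList.mpr hp)
    have hi' : i < s.card := by simpa using hi
    refine ⟨pt i, ⟨i, hi', rfl⟩, ?_⟩
    show g (pt i) = p
    rw [hga i hi', List.getD_eq_getElem _ _ hi, hip]

theorem trans_card {s t : Finset GolayPt} (hs : s.card ≤ 5) (h : s.card = t.card) :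
    ∃ g ∈ M24, g • s = t := by
  obtain ⟨g, hg, hs'⟩ := trans_subset s hs
  obtain ⟨g', hg', ht⟩ := trans_subset t (h ▸ hs)
  rw [← h] at ht
  refine ⟨g' * g⁻¹, mul_mem hg' (inv_mem hg), ?_⟩
  rw [← hs', mul_smul, inv_smul_smul]
  exact ht

/-- The reference octad: the one through the first five positions. -/
def octad0 : ℕ := 295007

/-- The reference dodecad. -/
def dodecad0 : ℕ := 108447

theorem words_through_five :
    (wordList 8).filter (fun m => m &&& 31 == 31) = [295007] ∧
    ((wordList 12).filter (fun m => m &&& 31 == 31)).all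
      (fun m => (dodecadFiveTree.find m).isSome) = true ∧
    isWord 8 295007 = true ∧ isWord 12 108447 = true := by decide +kernel

theorem octad0_mem : ofMask octad0 ∈ octads :=
  mem_wordsOfWeight_iff.mpr ⟨_, words_through_five.2.2.1, rfl⟩

theorem dodecad0_mem : ofMask dodecad0 ∈ dodecads :=
  mem_wordsOfWeight_iff.mpr ⟨_, words_through_five.2.2.2, rfl⟩

theorem exists_five {n : ℕ} (hn : 5 ≤ n) {s : Finset GolayPt}
    (hs : s ∈ wordsOfWeight (golayCode : Set (GolayPt → ZMod 2)) n) :
    ∃ g ∈ M24, ∃ m, m ∈ (wordList n).filter (fun m => m &&& 31 == 31) ∧ g • ofMask m = s := by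
  obtain ⟨f, hf, hf5⟩ := Finset.exists_subset_card_eq (s := s) (n := 5) (by rw [hs.2]; exact hn)
  obtain ⟨g, hg, hge⟩ := trans_subset f (by omega)
  rw [hf5] at hge
  obtain ⟨m, hm, hms⟩ := mem_wordsOfWeight_iff.mp (smul_mem_words (inv_mem hg) hs)
  have hlt : m < 2 ^ 24 := inCode_lt (by rw [isWord, Bool.and_eq_true] at hm; exact hm.1)
  refine ⟨g, hg, m, List.mem_filter.mpr ⟨mem_wordList hm, ?_⟩, by rw [hms, smul_inv_smul]⟩
  have : ofMask 31 ⊆ ofMask m := by
    rw [hms, ← Finset.smul_finset_subset_smul_finset_iff (a := g), smul_inv_smul,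
      show ofMask 31 = ofMask (2 ^ 5 - 1) from rfl, hge]
    exact hf
  rw [ofMask_subset_iff (by norm_num) hlt, Nat.and_comm] at this
  simpa using this

theorem octad_trans {o : Finset GolayPt} (ho : o ∈ octads) :
    ∃ g ∈ M24, g • ofMask octad0 = o := by
  obtain ⟨g, hg, m, hm, hge⟩ := exists_five (by norm_num) ho
  rw [words_through_five.1, List.mem_singleton] at hm
  subst hm
  exact ⟨g, hg, hge⟩

theorem dodecad_trans {d : Finset GolayPt} (hd : d ∈ dodecads) :
    ∃ g ∈ M24, g • ofMask dodecad0 = d := by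
  obtain ⟨g, hg, m, hm, hge⟩ := exists_five (by norm_num) hd
  have hk := OT.mem_keys_of_isSome (List.all_eq_true.mp words_through_five.2.1 m hm)
  have hgens : dodecadFiveGens.all autL = true := by decide +kernel
  obtain ⟨r, hr, h, hh, hhe⟩ := orbit_cert stepMask_sound (gens := dodecadFiveGens)
    (roots := dodecadFiveRoots) (by decide +kernel) hgens M24 (gens_le_M24 hgens) m hk
  obtain rfl : r = 108447 := by simpa [dodecadFiveRoots] using hr
  exact ⟨g * h, mul_mem hg hh, by rw [mul_smul, dodecad0, hhe]; exact hge⟩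

/-- An octad is determined by any five of its points. -/
theorem octad_eq_of_five {o o' s : Finset GolayPt} (ho : o ∈ octads) (ho' : o' ∈ octads)
    (hs : s ⊆ o) (hs' : s ⊆ o') (h5 : 5 ≤ s.card) : o = o' := by
  obtain ⟨f, hf, hf5⟩ := Finset.exists_subset_card_eq h5
  obtain ⟨g, hg, hge⟩ := trans_subset f (by omega)
  rw [hf5] at hge
  have key : ∀ u, u ∈ octads → f ⊆ u → g⁻¹ • u = ofMask 295007 := by
    intro u hu hfu
    obtain ⟨m, hm, hms⟩ := mem_wordsOfWeight_iff.mp (smul_mem_words (inv_mem hg) hu)
    have hlt : m < 2 ^ 24 := inCode_lt (by rw [isWord, Bool.and_eq_true] at hm; exact hm.1)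
    have h31 : ofMask 31 ⊆ ofMask m := by
      rw [hms, ← Finset.smul_finset_subset_smul_finset_iff (a := g), smul_inv_smul,
        show ofMask 31 = ofMask (2 ^ 5 - 1) from rfl, hge]
      exact hfu
    rw [ofMask_subset_iff (by norm_num) hlt, Nat.and_comm] at h31
    have : m ∈ (wordList 8).filter (fun m => m &&& 31 == 31) :=
      List.mem_filter.mpr ⟨mem_wordList hm, by simpa using h31⟩
    rw [words_through_five.1, List.mem_singleton] at this
    rw [← hms, this]
  exact smul_left_cancel g⁻¹ ((key o ho (hf.trans hs)).trans (key o' ho' (hf.trans hs')).symm)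

theorem existsUnique_octad {s : Finset GolayPt} (hs : s.card = 5) :
    ∃! o, o ∈ octads ∧ s ⊆ o := by
  obtain ⟨g, hg, hge⟩ := trans_subset s (by omega)
  rw [hs] at hge
  have hsub : s ⊆ g • ofMask octad0 := by
    rw [← hge, Finset.smul_finset_subset_smul_finset_iff]
    exact (ofMask_subset_iff (by norm_num) (by decide)).mpr (by decide)
  exact ⟨g • ofMask octad0, ⟨smul_mem_words hg octad0_mem, hsub⟩,
    fun o ho => octad_eq_of_five ho.1 (smul_mem_words hg octad0_mem) ho.2 hsub hs.ge⟩

end Cfsg.Agent.M24Geo
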