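import Cfsg.Agent.M24Geo.Family
import Cfsg.Agent.M24Geo.Trans
import Cfsg.Agent.M24Geo.DataOctad

/-! The octads as a family: suborbits 1, 280, 448, 30 by size of intersection 8, 4, 2, 0. -/

set_option autoImplicit false

namespace Cfsg.Agent.M24Geo

open scoped Pointwise
open Cfsg

/-- Counts of octads by intersection with a given octad. -/
def octCnt (v : ℕ) : ℕ :=
  (octadTree.keys.filter fun k => popc (k &&& octad0) == v).length

theorem octad_cert : CertOK octadTree stepMask octadGens octadRoots octad0
    (fun k => popc (k &&& octad0)) :=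
  ⟨by decide +kernel, by decide +kernel, by decide +kernel, by decide +kernel, by decide +kernel⟩

theorem octad_keys_word : octadTree.keys.all (isWord 8) = true := by decide +kernel

theorem octad_keys_all : (wordList 8).all (fun k => (octadTree.find k).isSome) = true := by
  decide +kernel

theorem octad_hX : ∀ o ∈ octads, ∃ k ∈ octadTree.keys, ofMask k = o := by
  intro o ho
  obtain ⟨m, hm, rfl⟩ := mem_wordsOfWeight_iff.mp ho
  exact ⟨m, OT.mem_keys_of_isSome (List.all_eq_true.mp octad_keys_all m (mem_wordList hm)), rfl⟩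

theorem key_lt {n : ℕ} {L : List ℕ} (h : L.all (isWord n) = true) {k : ℕ} (hk : k ∈ L) :
    k < 2 ^ 24 := by
  have := List.all_eq_true.mp h k hk
  rw [isWord, Bool.and_eq_true] at this
  exact inCode_lt this.1

theorem inter_card_smul (g : Equiv.Perm GolayPt) (x y : Finset GolayPt) :
    (g • x ∩ g • y).card = (x ∩ y).card := by
  rw [← Finset.smul_finset_inter, Finset.card_smul_finset]

theorem inter_card_mask (a k : ℕ) : (ofMask a ∩ ofMask k).card = popc (k &&& a) := by
  rw [← ofMask_and, card_ofMask, Nat.and_comm]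

/-- The family of octads. -/
def octadFamily : Family (Finset GolayPt) where
  X := octads
  R x y := (x ∩ y).card
  cnt := octCnt
  smul_mem _ hg _ hx := smul_mem_words hg hx
  R_smul g _ := inter_card_smul g
  base := ofMask octad0
  base_mem := octad0_mem
  trans_base _ hx := octad_trans hx
  separates := octad_cert.separates (R := fun x y => (x ∩ y).card) stepMask_sound
    (fun g _ => inter_card_smul g) octad_hX
    fun k _ => inter_card_mask octad0 k
  count_base := octad_cert.count (R := fun x y => (x ∩ y).card) octad_hX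
    (fun k hk => mem_wordsOfWeight_iff.mpr ⟨k, List.all_eq_true.mp octad_keys_word k hk, rfl⟩)
    (fun a ha b hb h => ofMask_inj (key_lt octad_keys_word ha) (key_lt octad_keys_word hb) h)
    (fun k _ => inter_card_mask octad0 k)

theorem octCnt_values : octCnt 8 = 1 ∧ octCnt 4 = 280 ∧ octCnt 2 = 448 ∧ octCnt 0 = 30 ∧
    octadTree.keys.all (fun k => [8, 4, 2, 0].contains (popc (k &&& octad0))) = true := by
  decide +kernel

/-- Octads meet in 8, 4, 2 or 0 points. -/
theorem octad_inter_values {x y : Finset GolayPt} (hx : x ∈ octads) (hy : y ∈ octads) :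
    (x ∩ y).card = 8 ∨ (x ∩ y).card = 4 ∨ (x ∩ y).card = 2 ∨ (x ∩ y).card = 0 := by
  obtain ⟨g, hg, rfl⟩ := octad_trans hx
  obtain ⟨k, hk, hke⟩ := octad_hX _ (smul_mem_words (inv_mem hg) hy)
  have : (g • ofMask octad0 ∩ y).card = popc (k &&& octad0) := by
    rw [← inter_card_mask, hke, ← inter_card_smul g _ (g⁻¹ • y), smul_inv_smul]
  rw [this]
  simpa using List.all_eq_true.mp octCnt_values.2.2.2.2 k hk

theorem octad_stab_isCoatom {o : Finset GolayPt} (ho : o ∈ octads) :
    IsCoatom (MulAction.stabilizer M24 o) := by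
  obtain ⟨c8, c4, c2, c0, _⟩ := octCnt_values
  refine octadFamily.isCoatom ho ![8, 4, 2, 0] ![1, 280, 448, 30] (fun y hy => ?_) (by decide)
    ?_ ?_ (by decide) (by decide +kernel)
  · rcases octad_inter_values ho hy with h | h | h | h
    exacts [⟨0, h.symm⟩, ⟨1, h.symm⟩, ⟨2, h.symm⟩, ⟨3, h.symm⟩]
  · show 8 = (o ∩ o).card
    rw [Finset.inter_self, ho.2]
  · intro i
    fin_cases i
    exacts [c8, c4, c2, c0]

end Cfsg.Agent.M24Geo
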