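import Cfsg.Agent.M24Geo.Family
import Cfsg.Agent.M24Geo.DataTriad

/-! Kernel checks of the certificate for the orbits of a triad stabiliser on triads. -/

set_option autoImplicit false

namespace Cfsg.Agent.M24Geo

open Cfsg

/-- The 21 octads through the first three positions. -/
def triadOctads : List ℕ :=
  [19095, 66407, 233607, 271527, 295007, 537103, 656663, 1189959, 1916935, 2154759, 2165775, 3149879, 4215879, 4753447, 5243279, 6685191, 8536111, 8657159, 9471495, 11010247, 12656663]

theorem triadOctads_complete :
    ((wordList 8).filter fun m => m &&& 7 == 7).all (fun m => triadOctads.contains m) = true := by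
  decide +kernel

/-- The invariant on keys, relative to the first three positions. -/
def triadKinv (os : List ℕ) (k : ℕ) : ℕ :=
  2 * popc (k &&& 7) + bif os.any (fun o => (k ||| 7) &&& o == (k ||| 7)) then 1 else 0

theorem triad_cert : CertOK triadTree stepMask triadGens triadRoots 7
    (triadKinv triadOctads) :=
  ⟨by decide +kernel, by decide +kernel, by decide +kernel, by decide +kernel, by decide +kernel⟩

theorem triad_keys : triadTree.keys.all (fun k => popc k == 3 && Nat.blt k 16777216) = true ∧
    (List.range 24).all (fun i => (List.range 24).all fun j => Nat.ble j i ||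
      (List.range 24).all fun l => Nat.ble l j ||
        (triadTree.find (2 ^ i ||| 2 ^ j ||| 2 ^ l)).isSome) = true := by decide +kernel

/-- Counts of triads by the invariant with a given triad. -/
def triadCnt (v : ℕ) : ℕ := (triadTree.keys.filter fun k => triadKinv triadOctads k == v).length

theorem triad_roots_keys : triadRoots.all (fun k => (triadTree.find k).isSome) = true := by
  decide +kernel

theorem triadCnt_values : triadCnt 7 = 1 ∧ triadCnt 5 = 63 ∧ triadCnt 3 = 630 ∧ triadCnt 1 = 210 ∧
    triadCnt 0 = 1120 ∧
    triadTree.keys.all (fun k => [7, 5, 3, 1, 0].contains (triadKinv triadOctads k)) = true := by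
  decide +kernel

end Cfsg.Agent.M24Geo
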