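import Cfsg.Agent.M24Geo.Octad
import Cfsg.Agent.M24Geo.DataDuad
import Cfsg.Agent.M24Geo.TriadCert

/-!
Duads and triads as families. For triads the invariant separates, among the triads disjoint from a
given one, those inside a common octad with it.
-/

set_option autoImplicit false

namespace Cfsg.Agent.M24Geo

open scoped Pointwise
open Cfsg

theorem ofMask_pow : ∀ i < 24, ofMask (2 ^ i) = {pt i} := by decide +kernel

theorem ofMask_pow_idx (p : GolayPt) : ofMask (2 ^ idx p) = {p} := by
  rw [ofMask_pow _ (idx_lt p), pt_idx]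

/-! ### Duads -/

theorem duad_cert : CertOK duadTree stepMask duadGens duadRoots 3 (fun k => popc (k &&& 3)) :=
  ⟨by decide +kernel, by decide +kernel, by decide +kernel, by decide +kernel, by decide +kernel⟩

theorem duad_keys : duadTree.keys.all (fun k => popc k == 2 && Nat.blt k 16777216) = true ∧
    (List.range 24).all (fun i => (List.range 24).all fun j =>
      i == j || (duadTree.find (2 ^ i ||| 2 ^ j)).isSome) = true := by decide +kernel

theorem duad_hX : ∀ s ∈ {s : Finset GolayPt | s.card = 2}, ∃ k ∈ duadTree.keys, ofMask k = s := by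
  intro s hs
  obtain ⟨p, q, hpq, rfl⟩ := Finset.card_eq_two.mp hs
  have h := List.all_eq_true.mp (List.all_eq_true.mp duad_keys.2 _ (List.mem_range.mpr (idx_lt p)))
    _ (List.mem_range.mpr (idx_lt q))
  rw [Bool.or_eq_true, beq_iff_eq] at h
  refine ⟨_, OT.mem_keys_of_isSome (h.resolve_left fun e => hpq (idx_injective e)), ?_⟩
  rw [ofMask_or, ofMask_pow_idx, ofMask_pow_idx]
  rfl

/-- Counts of duads by intersection with a given duad. -/
def duadCnt (v : ℕ) : ℕ := (duadTree.keys.filter fun k => popc (k &&& 3) == v).length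

/-- The family of duads. -/
def duadFamily : Family (Finset GolayPt) where
  X := {s | s.card = 2}
  R x y := (x ∩ y).card
  cnt := duadCnt
  smul_mem g _ x hx := (Finset.card_smul_finset g x).trans hx
  R_smul g _ := inter_card_smul g
  base := ofMask 3
  base_mem := by simp only [Set.mem_ofPred_eq, card_ofMask]; decide
  trans_base x hx := by
    obtain ⟨g, hg, h⟩ := trans_subset x (by simp only [Set.mem_ofPred_eq] at hx; omega)
    rw [Set.mem_ofPred_eq] at hx
    rw [hx] at h
    exact ⟨g, hg, h⟩
  separates := duad_cert.separates (R := fun x y => (x ∩ y).card) stepMask_sound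
    (fun g _ => inter_card_smul g)
    duad_hX fun k _ => inter_card_mask 3 k
  count_base := duad_cert.count (R := fun x y => (x ∩ y).card) duad_hX
    (fun k hk => by
      have h := List.all_eq_true.mp duad_keys.1 k hk
      simp only [Bool.and_eq_true, beq_iff_eq] at h
      rw [Set.mem_ofPred_eq, card_ofMask, h.1])
    (fun a ha b hb h => by
      have h1 := List.all_eq_true.mp duad_keys.1 a ha
      have h2 := List.all_eq_true.mp duad_keys.1 b hb
      simp only [Bool.and_eq_true, Nat.blt_eq] at h1 h2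
      exact ofMask_inj h1.2 h2.2 h)
    (fun k _ => inter_card_mask 3 k)

theorem duadCnt_values : duadCnt 2 = 1 ∧ duadCnt 1 = 44 ∧ duadCnt 0 = 231 := by decide +kernel

theorem duad_stab_isCoatom {s : Finset GolayPt} (hs : s.card = 2) :
    IsCoatom (MulAction.stabilizer M24 s) := by
  obtain ⟨a, b, c⟩ := duadCnt_values
  refine duadFamily.isCoatom hs ![2, 1, 0] ![1, 44, 231] (fun y hy => ?_) (by decide) ?_ ?_
    (by decide) (by decide +kernel)
  · have h : (s ∩ y).card ≤ 2 := (Finset.card_le_card Finset.inter_subset_left).trans hs.le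
    rcases (show (s ∩ y).card = 2 ∨ (s ∩ y).card = 1 ∨ (s ∩ y).card = 0 by omega) with e | e | e
    exacts [⟨0, e.symm⟩, ⟨1, e.symm⟩, ⟨2, e.symm⟩]
  · show 2 = (s ∩ s).card
    rw [Finset.inter_self, hs]
  · intro i
    fin_cases i
    exacts [a, b, c]

/-! ### Triads -/

/-- Invariant of two triads: their intersection, and whether they are in a common octad. -/
noncomputable def triadRel (x y : Finset GolayPt) : ℕ :=
  open Classical in
  2 * (x ∩ y).card + if ∃ o ∈ octads, x ∪ y ⊆ o then 1 else 0

theorem triad_hX : ∀ s ∈ {s : Finset GolayPt | s.card = 3}, ∃ k ∈ triadTree.keys, ofMask k = s := by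
  intro s hs
  obtain ⟨m, hm, rfl⟩ := exists_mask s
  rw [Set.mem_ofPred_eq] at hs
  have hsort := ((ofMask m).image idx).sortedLT_sort
  obtain ⟨a, b, c, hL⟩ : ∃ a b c, ((ofMask m).image idx).sort (· ≤ ·) = [a, b, c] := by
    have : (((ofMask m).image idx).sort (· ≤ ·)).length = 3 := by
      rw [Finset.length_sort, Finset.card_image_of_injective _ idx_injective, hs]
    match hh : ((ofMask m).image idx).sort (· ≤ ·), this with
    | [a, b, c], _ => exact ⟨a, b, c, rfl⟩
  rw [hL] at hsort
  have hmem : ∀ x, x ∈ [a, b, c] ↔ x ∈ (ofMask m).image idx := by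
    intro x; rw [← hL, Finset.mem_sort]
  have hlt : ∀ x ∈ [a, b, c], x < 24 := fun x hx => by
    obtain ⟨p, _, rfl⟩ := Finset.mem_image.mp ((hmem x).mp hx)
    exact idx_lt p
  have hab : a < b := by simpa using hsort.getElem_lt_getElem_of_lt (i := 0) (j := 1) (hi := by simp) (hj := by simp) (by norm_num)
  have hbc : b < c := by simpa using hsort.getElem_lt_getElem_of_lt (i := 1) (j := 2) (hi := by simp) (hj := by simp) (by norm_num)
  have h1 := List.all_eq_true.mp triad_keys.2 a (List.mem_range.mpr (hlt a (by simp)))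
  have h2 := List.all_eq_true.mp h1 b (List.mem_range.mpr (hlt b (by simp)))
  rw [Bool.or_eq_true, Nat.ble_eq] at h2
  have h3 := List.all_eq_true.mp (h2.resolve_left (by omega)) c (List.mem_range.mpr (hlt c (by simp)))
  rw [Bool.or_eq_true, Nat.ble_eq] at h3
  refine ⟨_, OT.mem_keys_of_isSome (h3.resolve_left (by omega)), ?_⟩
  ext p
  rw [ofMask_or, ofMask_or, ofMask_pow _ (hlt a (by simp)), ofMask_pow _ (hlt b (by simp)),
    ofMask_pow _ (hlt c (by simp))]
  have hp := hmem (idx p)
  rw [Finset.mem_image] at hp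
  have hp' : (∃ q ∈ ofMask m, idx q = idx p) ↔ p ∈ ofMask m :=
    ⟨fun ⟨q, hq, e⟩ => idx_injective e ▸ hq, fun h => ⟨p, h, rfl⟩⟩
  rw [← hp', ← hp]
  have e : ∀ x < 24, (p = pt x ↔ idx p = x) := fun x hx =>
    ⟨fun h => h ▸ idx_pt x hx, fun h => h ▸ (pt_idx p).symm⟩
  simp [e a (hlt a (by simp)), e b (hlt b (by simp)), e c (hlt c (by simp))]

theorem triadRel_smul (g : Equiv.Perm GolayPt) (hg : g ∈ M24) (x y : Finset GolayPt) :
    triadRel (g • x) (g • y) = triadRel x y := by
  have h : (∃ o ∈ octads, g • x ∪ g • y ⊆ o) ↔ ∃ o ∈ octads, x ∪ y ⊆ o := by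
    rw [← Finset.smul_finset_union]
    constructor
    · rintro ⟨o, ho, hs⟩
      refine ⟨g⁻¹ • o, smul_mem_words (inv_mem hg) ho, ?_⟩
      rwa [← Finset.smul_finset_subset_smul_finset_iff (a := g), smul_inv_smul]
    · rintro ⟨o, ho, hs⟩
      exact ⟨g • o, smul_mem_words hg ho, Finset.smul_finset_subset_smul_finset hs⟩
  simp only [triadRel, inter_card_smul]
  split_ifs with h1 h2 h2
  · rfl
  · exact absurd (h.mp h1) h2
  · exact absurd (h.mpr h2) h1
  · rfl

theorem triadOctads_mem {o : ℕ} (h : o ∈ triadOctads) : ofMask o ∈ octads ∧ o < 2 ^ 24 := by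
  have hall : triadOctads.all (isWord 8) = true := by decide +kernel
  exact ⟨mem_wordsOfWeight_iff.mpr ⟨o, List.all_eq_true.mp hall o h, rfl⟩, key_lt hall h⟩

theorem triadRel_key {k : ℕ} (hk : k ∈ triadTree.keys) :
    triadRel (ofMask 7) (ofMask k) = triadKinv triadOctads k := by
  have hlt : k < 2 ^ 24 := by
    have h := List.all_eq_true.mp triad_keys.1 k hk
    simp only [Bool.and_eq_true, Nat.blt_eq] at h
    exact h.2
  have hlt7 : k ||| 7 < 2 ^ 24 := Nat.or_lt_two_pow hlt (by norm_num)
  have hiff : (∃ o ∈ octads, ofMask 7 ∪ ofMask k ⊆ o) ↔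
      (triadOctads.any fun o => (k ||| 7) &&& o == (k ||| 7)) = true := by
    rw [← ofMask_or, Nat.or_comm 7 k, List.any_eq_true]
    constructor
    · rintro ⟨o, ho, hs⟩
      obtain ⟨m, hm, rfl⟩ := mem_wordsOfWeight_iff.mp ho
      have hm24 : m < 2 ^ 24 := inCode_lt (by rw [isWord, Bool.and_eq_true] at hm; exact hm.1)
      refine ⟨m, List.contains_iff_mem.mp (List.all_eq_true.mp triadOctads_complete m
          (List.mem_filter.mpr ⟨mem_wordList hm, ?_⟩)),
        by simpa using (ofMask_subset_iff hlt7 hm24).mp hs⟩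
      have h7 : ofMask 7 ⊆ ofMask (k ||| 7) := by
        rw [ofMask_or]; exact Finset.subset_union_right
      have := (ofMask_subset_iff (by norm_num) hm24).mp (h7.trans hs)
      rw [Nat.and_comm] at this
      simpa using this
    · rintro ⟨o, ho, hs⟩
      obtain ⟨h1, h2⟩ := triadOctads_mem ho
      exact ⟨_, h1, (ofMask_subset_iff hlt7 h2).mpr (by simpa using hs)⟩
  rw [triadRel, inter_card_mask, triadKinv]
  cases hb : triadOctads.any fun o => (k ||| 7) &&& o == (k ||| 7)
  · rw [hb] at hiff; simp [hiff]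
  · rw [hb] at hiff; simp [hiff]

/-- The family of triads. -/
noncomputable def triadFamily : Family (Finset GolayPt) where
  X := {s | s.card = 3}
  R := triadRel
  cnt := triadCnt
  smul_mem g _ x hx := (Finset.card_smul_finset g x).trans hx
  R_smul := triadRel_smul
  base := ofMask 7
  base_mem := by simp only [Set.mem_ofPred_eq, card_ofMask]; decide
  trans_base x hx := by
    rw [Set.mem_ofPred_eq] at hx
    obtain ⟨g, hg, h⟩ := trans_subset x (by omega)
    rw [hx] at h
    exact ⟨g, hg, h⟩
  separates := triad_cert.separates (R := triadRel) stepMask_sound triadRel_smul triad_hX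
    fun k hk => triadRel_key (OT.mem_keys_of_isSome (List.all_eq_true.mp triad_roots_keys k hk))
  count_base := triad_cert.count (R := triadRel) triad_hX
    (fun k hk => by
      have h := List.all_eq_true.mp triad_keys.1 k hk
      simp only [Bool.and_eq_true, beq_iff_eq] at h
      rw [Set.mem_ofPred_eq, card_ofMask, h.1])
    (fun a ha b hb h => by
      have h1 := List.all_eq_true.mp triad_keys.1 a ha
      have h2 := List.all_eq_true.mp triad_keys.1 b hb
      simp only [Bool.and_eq_true, Nat.blt_eq] at h1 h2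
      exact ofMask_inj h1.2 h2.2 h)
    (fun _ hk => triadRel_key hk)

theorem triadRel_values {x y : Finset GolayPt} (hx : x.card = 3) (hy : y.card = 3) :
    triadRel x y ∈ [7, 5, 3, 1, 0] := by
  obtain ⟨g, hg, hge⟩ := triadFamily.trans_base x hx
  obtain ⟨k, hk, hke⟩ := triad_hX _ (triadFamily.smul_mem _ (inv_mem hg) y hy)
  have : triadRel x y = triadKinv triadOctads k := by
    rw [← triadRel_key hk, hke, ← triadRel_smul g hg _ (g⁻¹ • y), smul_inv_smul, ← hge]
    rfl
  rw [this]
  simpa using List.all_eq_true.mp triadCnt_values.2.2.2.2.2 k hk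

theorem triadRel_disjoint {x y : Finset GolayPt} (h : Disjoint x y) :
    (triadRel x y = 1 ↔ ∃ o ∈ octads, x ∪ y ⊆ o) ∧
      (triadRel x y = 0 ↔ ¬ ∃ o ∈ octads, x ∪ y ⊆ o) := by
  rw [triadRel, Finset.disjoint_iff_inter_eq_empty.mp h, Finset.card_empty]
  split_ifs with h1 <;> simp [h1]

theorem disjoint_of_triadRel_le {x y : Finset GolayPt} (h : triadRel x y ≤ 1) : Disjoint x y := by
  rw [Finset.disjoint_iff_inter_eq_empty, ← Finset.card_eq_zero]
  rw [triadRel] at h
  omega

theorem triad_stab_isCoatom {s : Finset GolayPt} (hs : s.card = 3) :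
    IsCoatom (MulAction.stabilizer M24 s) := by
  obtain ⟨a, b, c, d, e, _⟩ := triadCnt_values
  refine triadFamily.isCoatom hs ![7, 5, 3, 1, 0] ![1, 63, 630, 210, 1120] (fun y hy => ?_)
    (by decide) ?_ ?_ (by decide) (by decide +kernel)
  · have h := triadRel_values hs hy
    simp only [List.mem_cons, List.not_mem_nil, or_false] at h
    rcases h with h | h | h | h | h
    exacts [⟨0, h.symm⟩, ⟨1, h.symm⟩, ⟨2, h.symm⟩, ⟨3, h.symm⟩, ⟨4, h.symm⟩]
  · show 7 = triadRel s s
    have h := triadRel_values hs hs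
    simp only [List.mem_cons, List.not_mem_nil, or_false] at h
    rw [triadRel, Finset.inter_self, hs] at h ⊢
    omega
  · intro i
    fin_cases i
    exacts [a, b, c, d, e]

end Cfsg.Agent.M24Geo
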