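import Cfsg.Agent.M24Geo.Family
import Cfsg.Agent.M24Geo.Trans
import Cfsg.Agent.M24Geo.DataDodecad

/-! Kernel checks of the certificate for the orbits of a dodecad stabiliser on dodecads. -/

set_option autoImplicit false

namespace Cfsg.Agent.M24Geo

open Cfsg

/-- Counts of dodecads by intersection with a given dodecad. -/
def dodCnt (v : ℕ) : ℕ :=
  (dodecadTree.keys.filter fun k => popc (k &&& dodecad0) == v).length

theorem dodecad_cert : CertOK dodecadTree stepMask dodecadGens dodecadRoots dodecad0
    (fun k => popc (k &&& dodecad0)) :=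
  ⟨by decide +kernel, by decide +kernel, by decide +kernel, by decide +kernel, by decide +kernel⟩

theorem dodecad_keys_word : dodecadTree.keys.all (isWord 12) = true := by decide +kernel

theorem dodecad_keys_all : (wordList 12).all (fun k => (dodecadTree.find k).isSome) = true := by
  decide +kernel

theorem dodCnt_values : dodCnt 12 = 1 ∧ dodCnt 8 = 495 ∧ dodCnt 6 = 1584 ∧ dodCnt 4 = 495 ∧
    dodCnt 0 = 1 ∧
    dodecadTree.keys.all (fun k => [12, 8, 6, 4, 0].contains (popc (k &&& dodecad0))) = true := by
  decide +kernel

end Cfsg.Agent.M24Geo
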