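import Cfsg.Agent.M24Geo.Octad
import Cfsg.Agent.M24Geo.DodecadCert

/-!
The dodecads as a family, and the pairs of complementary dodecads.
-/

set_option autoImplicit false

namespace Cfsg.Agent.M24Geo

open scoped Pointwise
open Cfsg

theorem dodecad_hX : ∀ o ∈ dodecads, ∃ k ∈ dodecadTree.keys, ofMask k = o := by
  intro o ho
  obtain ⟨m, hm, rfl⟩ := mem_wordsOfWeight_iff.mp ho
  exact ⟨m, OT.mem_keys_of_isSome (List.all_eq_true.mp dodecad_keys_all m (mem_wordList hm)), rfl⟩

/-- The family of dodecads. -/
def dodecadFamily : Family (Finset GolayPt) where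
  X := dodecads
  R x y := (x ∩ y).card
  cnt := dodCnt
  smul_mem _ hg _ hx := smul_mem_words hg hx
  R_smul g _ := inter_card_smul g
  base := ofMask dodecad0
  base_mem := dodecad0_mem
  trans_base _ hx := dodecad_trans hx
  separates := dodecad_cert.separates (R := fun x y => (x ∩ y).card) stepMask_sound
    (fun g _ => inter_card_smul g)
    dodecad_hX fun k _ => inter_card_mask dodecad0 k
  count_base := dodecad_cert.count (R := fun x y => (x ∩ y).card) dodecad_hX
    (fun k hk => mem_wordsOfWeight_iff.mpr ⟨k, List.all_eq_true.mp dodecad_keys_word k hk, rfl⟩)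
    (fun _ ha _ hb h => ofMask_inj (key_lt dodecad_keys_word ha) (key_lt dodecad_keys_word hb) h)
    (fun k _ => inter_card_mask dodecad0 k)

/-- Dodecads meet in 12, 8, 6, 4 or 0 points. -/
theorem dodecad_inter_values {x y : Finset GolayPt} (hx : x ∈ dodecads) (hy : y ∈ dodecads) :
    (x ∩ y).card = 12 ∨ (x ∩ y).card = 8 ∨ (x ∩ y).card = 6 ∨ (x ∩ y).card = 4 ∨
      (x ∩ y).card = 0 := by
  obtain ⟨g, hg, rfl⟩ := dodecad_trans hx
  obtain ⟨k, hk, hke⟩ := dodecad_hX _ (smul_mem_words (inv_mem hg) hy)
  have : (g • ofMask dodecad0 ∩ y).card = popc (k &&& dodecad0) := by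
    rw [← inter_card_mask, hke, ← inter_card_smul g _ (g⁻¹ • y), smul_inv_smul]
  rw [this]
  simpa using List.all_eq_true.mp dodCnt_values.2.2.2.2.2 k hk

theorem eq_of_inter_full {n : ℕ} {x y : Finset GolayPt}
    (hx : x ∈ wordsOfWeight (golayCode : Set (GolayPt → ZMod 2)) n)
    (hy : y ∈ wordsOfWeight (golayCode : Set (GolayPt → ZMod 2)) n) (h : (x ∩ y).card = n) :
    x = y := by
  have h1 : x ∩ y = x := Finset.eq_of_subset_of_card_le Finset.inter_subset_left (by rw [h, hx.2])
  have h2 : x ∩ y = y := Finset.eq_of_subset_of_card_le Finset.inter_subset_right (by rw [h, hy.2])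
  exact h1.symm.trans h2

theorem compl_mem_dodecads {d : Finset GolayPt} (hd : d ∈ dodecads) : dᶜ ∈ dodecads := by
  obtain ⟨m, hm, rfl⟩ := mem_wordsOfWeight_iff.mp hd
  rw [← ofMask_compl]
  rw [isWord, Bool.and_eq_true, beq_iff_eq] at hm
  refine mem_wordsOfWeight_iff.mpr ⟨_, ?_, rfl⟩
  rw [isWord, inCode_xor hm.1 (by decide), Bool.true_and, beq_iff_eq, ← card_ofMask, ofMask_compl,
    Finset.card_compl, card_ofMask, hm.2]
  decide

theorem inter_compl_card (a b : Finset GolayPt) : (a ∩ bᶜ).card = a.card - (a ∩ b).card := by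
  have := Finset.card_sdiff_add_card_inter a b
  rw [show a ∩ bᶜ = a \ b from by ext; simp]
  omega

theorem smul_pair_compl (g : Equiv.Perm GolayPt) (d : Finset GolayPt) :
    g • ({d, dᶜ} : Finset (Finset GolayPt)) = {g • d, (g • d)ᶜ} := by
  have h : g • dᶜ = (g • d)ᶜ := by
    ext q
    rw [← Finset.inv_smul_mem_iff, Finset.mem_compl, Finset.mem_compl, ← Finset.inv_smul_mem_iff]
  simp [Finset.smul_finset_insert, Finset.smul_finset_singleton, h]

/-- The stabiliser of a pair of complementary dodecads is a maximal subgroup. -/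
theorem dodecad_pair_stab_isCoatom {d : Finset GolayPt} (hd : d ∈ dodecads) :
    IsCoatom (MulAction.stabilizer M24 ({d, dᶜ} : Finset (Finset GolayPt))) := by
  classical
  set P0 : Finset (Finset GolayPt) := {d, dᶜ} with hP0
  -- a pair is classified by the intersection of one of its members with `d`
  let c : Finset (Finset GolayPt) → Fin 3 := fun P =>
    if P = P0 then 0 else if ∃ e ∈ P, (d ∩ e).card = 6 then 2 else 1
  have horb : MulAction.orbit M24 P0 = {P | ∃ e ∈ dodecads, P = {e, eᶜ}} := by
    ext P
    constructor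
    · rintro ⟨g, rfl⟩
      exact ⟨_, smul_mem_words g.2 hd, smul_pair_compl _ d⟩
    · rintro ⟨e, he, rfl⟩
      obtain ⟨g, hg, rfl⟩ := dodecadFamily.transitive hd he
      exact ⟨⟨g, hg⟩, smul_pair_compl g d⟩
  -- the map from dodecads to pairs is two to one
  have hpair : ∀ e e' : Finset GolayPt, ({e, eᶜ} : Finset (Finset GolayPt)) = {e', e'ᶜ} →
      e' = e ∨ e' = eᶜ := by
    intro e e' h
    have : e' ∈ ({e, eᶜ} : Finset (Finset GolayPt)) := by rw [h]; simp
    simpa using this
  have hc : ∀ e ∈ dodecads, c {e, eᶜ} =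
      if (d ∩ e).card = 12 ∨ (d ∩ e).card = 0 then 0 else if (d ∩ e).card = 6 then 2 else 1 := by
    intro e he
    have h12 : ({e, eᶜ} : Finset (Finset GolayPt)) = P0 ↔ (d ∩ e).card = 12 ∨ (d ∩ e).card = 0 := by
      constructor
      · intro h
        rcases hpair d e h.symm with rfl | rfl
        · exact Or.inl (by rw [Finset.inter_self, hd.2])
        · exact Or.inr (by rw [Finset.inter_compl, Finset.card_empty])
      · rintro (h | h)
        · rw [hP0, eq_of_inter_full hd he h]
        · have h' := eq_of_inter_full hd (compl_mem_dodecads he)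
            (by rw [inter_compl_card, h, hd.2])
          rw [hP0, h', compl_compl, Finset.pair_comm]
    simp only [c, h12]
    split_ifs with h1 h2 h3 h3
    · rfl
    · rfl
    · obtain ⟨f, hf, hf6⟩ := h2
      rw [Finset.mem_insert, Finset.mem_singleton] at hf
      rcases hf with rfl | rfl
      · exact absurd hf6 h3
      · rw [inter_compl_card, hd.2] at hf6
        omega
    · exact absurd ⟨e, by simp, h3⟩ h2
    · rfl
  refine isCoatom_of_classes P0 c ![1, 495, 792] 1288 ?_ ?_ ?_ (by norm_num)
    (by intro f; rw [show c P0 = 0 by simp [c]]; revert f; decide +kernel)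
  rotate_left 2
  · intro y hy z hz h
    rw [horb] at hy hz
    obtain ⟨e, he, rfl⟩ := hy
    obtain ⟨e', he', rfl⟩ := hz
    rw [hc e he, hc e' he'] at h
    have key : (d ∩ e).card = (d ∩ e').card ∨ (d ∩ e).card = (d ∩ e'ᶜ).card := by
      rw [inter_compl_card, hd.2]
      rcases dodecad_inter_values hd he with a | a | a | a | a <;>
        rcases dodecad_inter_values hd he' with b | b | b | b | b <;>
        simp_all
    rcases key with k | k
    · obtain ⟨g, hg, hgd, rfl⟩ := dodecadFamily.stab_trans hd he he' k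
      refine ⟨⟨g, hg⟩, MulAction.mem_stabilizer_iff.mpr ?_, smul_pair_compl g e⟩
      show g • P0 = P0
      rw [hP0, smul_pair_compl, hgd]
    · obtain ⟨g, hg, hgd, hge⟩ := dodecadFamily.stab_trans hd he (compl_mem_dodecads he') k
      refine ⟨⟨g, hg⟩, MulAction.mem_stabilizer_iff.mpr ?_, ?_⟩
      · show g • P0 = P0
        rw [hP0, smul_pair_compl, hgd]
      · show g • ({e, eᶜ} : Finset (Finset GolayPt)) = _
        rw [smul_pair_compl, hge, compl_compl, Finset.pair_comm]
  all_goals
    have hfib : ∀ (S : Set (Finset GolayPt)), S ⊆ dodecads → (∀ e ∈ S, eᶜ ∈ S) →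
        S.ncard = 2 * ((fun e => ({e, eᶜ} : Finset (Finset GolayPt))) '' S).ncard := by
      intro S hS hS'
      have hfin : S.Finite := Set.toFinite _
      rw [Set.ncard_eq_toFinset_card S hfin, Set.ncard_eq_toFinset_card _ (hfin.image _),
        Set.Finite.toFinset_image, mul_comm]
      rw [Finset.card_eq_sum_card_image (fun e => ({e, eᶜ} : Finset (Finset GolayPt)))]
      refine Finset.sum_const_nat ?_
      intro P hP
      obtain ⟨e, he, rfl⟩ := Finset.mem_image.mp hP
      rw [Set.Finite.mem_toFinset] at he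
      have : hfin.toFinset.filter (fun x => ({x, xᶜ} : Finset (Finset GolayPt)) = {e, eᶜ}) =
          {e, eᶜ} := by
        ext x
        simp only [Finset.mem_filter, Set.Finite.mem_toFinset, Finset.mem_insert,
          Finset.mem_singleton]
        constructor
        · exact fun h => hpair e x h.2.symm
        · rintro (rfl | rfl)
          · exact ⟨he, rfl⟩
          · exact ⟨hS' e he, by rw [compl_compl, Finset.pair_comm]⟩
      rw [this, Finset.card_pair]
      intro h
      have := congrArg Finset.card h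
      have h0 : e ∩ eᶜ = ∅ := Finset.inter_compl e
      rw [← h, Finset.inter_self] at h0
      rw [h0, Finset.card_empty] at this
      exact absurd (hS he).2 (by rw [h0]; simp)
  · rw [horb]
    have h := hfib dodecads subset_rfl fun e he => compl_mem_dodecads he
    rw [show dodecads.ncard = ∑ i, dodecadFamily.cnt (![12, 8, 6, 4, 0] i) from
      dodecadFamily.ncard_eq hd (Set.toFinite _) _ ?_ ?_] at h
    · obtain ⟨a, b, c', e, f, _⟩ := dodCnt_values
      simp only [Fin.sum_univ_five, dodecadFamily, Matrix.cons_val, a, b, c', e, f] at h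
      rw [show {P | ∃ e ∈ dodecads, P = {e, eᶜ}} =
        (fun e => ({e, eᶜ} : Finset (Finset GolayPt))) '' dodecads from by ext; simp [eq_comm]]
      omega
    · intro y hy
      rcases dodecad_inter_values hd hy with h | h | h | h | h
      exacts [⟨0, h.symm⟩, ⟨1, h.symm⟩, ⟨2, h.symm⟩, ⟨3, h.symm⟩, ⟨4, h.symm⟩]
    · decide
  · intro i
    rw [horb]
    have h := hfib {e | e ∈ dodecads ∧ c {e, eᶜ} = i} (fun e he => he.1) fun e he =>
      ⟨compl_mem_dodecads he.1, by rw [compl_compl, Finset.pair_comm]; exact he.2⟩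
    have himg : (fun e => ({e, eᶜ} : Finset (Finset GolayPt))) '' {e | e ∈ dodecads ∧ c {e, eᶜ} = i}
        = {y | y ∈ {P | ∃ e ∈ dodecads, P = {e, eᶜ}} ∧ c y = i} := by
      ext P
      simp only [Set.mem_image, Set.mem_ofPred_eq]
      constructor
      · rintro ⟨e, ⟨he, hi⟩, rfl⟩; exact ⟨⟨e, he, rfl⟩, hi⟩
      · rintro ⟨⟨e, he, rfl⟩, hi⟩; exact ⟨e, ⟨he, hi⟩, rfl⟩
    rw [himg] at h
    obtain ⟨a, b, c', e, f, _⟩ := dodCnt_values
    have hcnt := fun v => dodecadFamily.count hd v
    simp only [dodecadFamily] at hcnt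
    fin_cases i
    · have : {e | e ∈ dodecads ∧ c {e, eᶜ} = 0} =
          {y | y ∈ dodecads ∧ (d ∩ y).card = 12} ∪ {y | y ∈ dodecads ∧ (d ∩ y).card = 0} := by
        ext y
        simp only [Set.mem_ofPred_eq, Set.mem_union, ← and_or_left]
        refine and_congr_right fun hy => ?_
        rw [hc y hy]
        split_ifs <;> simp_all
      simp only [Fin.zero_eta] at h ⊢
      rw [this, Set.ncard_union_eq (Set.disjoint_left.mpr fun y h1 h2 => by
        simp only [Set.mem_ofPred_eq] at h1 h2; omega) (Set.toFinite _) (Set.toFinite _),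
        hcnt, hcnt, a, f] at h
      simp only [Matrix.cons_val_zero]
      omega
    · have : {e | e ∈ dodecads ∧ c {e, eᶜ} = 1} =
          {y | y ∈ dodecads ∧ (d ∩ y).card = 8} ∪ {y | y ∈ dodecads ∧ (d ∩ y).card = 4} := by
        ext y
        simp only [Set.mem_ofPred_eq, Set.mem_union, ← and_or_left]
        refine and_congr_right fun hy => ?_
        rw [hc y hy]
        rcases dodecad_inter_values hd hy with a | a | a | a | a <;> simp [a]
      simp only [Fin.mk_one] at h ⊢
      rw [this, Set.ncard_union_eq (Set.disjoint_left.mpr fun y h1 h2 => by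
        simp only [Set.mem_ofPred_eq] at h1 h2; omega) (Set.toFinite _) (Set.toFinite _),
        hcnt, hcnt, b, e] at h
      simp only [Matrix.cons_val_one, Matrix.cons_val_zero]
      omega
    · have : {e | e ∈ dodecads ∧ c {e, eᶜ} = 2} = {y | y ∈ dodecads ∧ (d ∩ y).card = 6} := by
        ext y
        simp only [Set.mem_ofPred_eq]
        refine and_congr_right fun hy => ?_
        rw [hc y hy]
        rcases dodecad_inter_values hd hy with a | a | a | a | a <;> simp [a]
      simp only [Fin.reduceFinMk] at h ⊢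
      rw [this, hcnt, c'] at h
      simp only [Matrix.cons_val]
      omega

end Cfsg.Agent.M24Geo
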