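import Cfsg.Prelude.Def_SporadicCombinatorics

/-!
Bitmask encoding of subsets of the 24 points, and of the length-24 code.
Index 0 is `none`, index `i + 1` is `some i`.
-/

set_option autoImplicit false

namespace Cfsg.Agent.M24Geo

open scoped Pointwise
open Cfsg

/-- Position of a point. -/
def idx : GolayPt → ℕ
  | none => 0
  | some x => x.val + 1

/-- Point at a position. -/
def pt : ℕ → GolayPt
  | 0 => none
  | n + 1 => some (n : ZMod 23)

theorem idx_lt : ∀ p : GolayPt, idx p < 24 := by decide

theorem pt_idx : ∀ p : GolayPt, pt (idx p) = p := by decide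

theorem idx_pt : ∀ i < 24, idx (pt i) = i := by decide

theorem idx_injective : Function.Injective idx := fun a b h => by
  rw [← pt_idx a, ← pt_idx b, h]

/-- Subset encoded by a bitmask. -/
def ofMask (m : ℕ) : Finset GolayPt := Finset.univ.filter fun p => m.testBit (idx p) = true

@[simp] theorem mem_ofMask {m : ℕ} {p : GolayPt} : p ∈ ofMask m ↔ m.testBit (idx p) = true := by
  simp [ofMask]

/-- Number of bits among the first 24. -/
def popc (m : ℕ) : ℕ := (List.range 24).countP fun i => m.testBit i

theorem card_ofMask (m : ℕ) : (ofMask m).card = popc m := by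
  have h : (ofMask m).image idx = (Finset.range 24).filter fun i => m.testBit i = true := by
    ext i
    simp only [Finset.mem_image, mem_ofMask, Finset.mem_filter, Finset.mem_range]
    constructor
    · rintro ⟨p, hp, rfl⟩
      exact ⟨idx_lt p, hp⟩
    · rintro ⟨hi, hb⟩
      exact ⟨pt i, by rw [idx_pt i hi]; exact hb, idx_pt i hi⟩
  rw [← Finset.card_image_of_injective _ idx_injective, h, popc, List.countP_eq_length_filter,
    ← List.toFinset_card_of_nodup (List.nodup_range.filter _)]
  congr 1
  ext i
  simp

theorem ofMask_xor (a b : ℕ) : ofMask (a ^^^ b) = symmDiff (ofMask a) (ofMask b) := by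
  ext p
  simp only [mem_ofMask, Finset.mem_symmDiff, Nat.testBit_xor]
  cases a.testBit (idx p) <;> cases b.testBit (idx p) <;> simp

theorem ofMask_or (a b : ℕ) : ofMask (a ||| b) = ofMask a ∪ ofMask b := by
  ext p
  simp [Nat.testBit_or]

theorem ofMask_and (a b : ℕ) : ofMask (a &&& b) = ofMask a ∩ ofMask b := by
  ext p
  simp [Nat.testBit_and]

theorem ofMask_zero : ofMask 0 = ∅ := by ext p; simp

theorem ofMask_inj {a b : ℕ} (ha : a < 2 ^ 24) (hb : b < 2 ^ 24) (h : ofMask a = ofMask b) :
    a = b := by
  refine Nat.eq_of_testBit_eq fun i => ?_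
  by_cases hi : i < 24
  · have := congrArg (fun s : Finset GolayPt => decide (pt i ∈ s)) h
    simpa [idx_pt i hi] using this
  · have h24 : 2 ^ 24 ≤ 2 ^ i := Nat.pow_le_pow_right (by norm_num) (by omega)
    rw [Nat.testBit_lt_two_pow (lt_of_lt_of_le ha h24),
      Nat.testBit_lt_two_pow (lt_of_lt_of_le hb h24)]

/-- Bitmask of a subset. -/
def toMask (s : Finset GolayPt) : ℕ :=
  (List.range 24).foldr (fun i m => if pt i ∈ s then 2 ^ i ||| m else m) 0

theorem testBit_foldr (q : ℕ → Prop) [DecidablePred q] (L : List ℕ) (j : ℕ) :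
    (L.foldr (fun i m => if q i then 2 ^ i ||| m else m) 0).testBit j = true ↔ j ∈ L ∧ q j := by
  induction L with
  | nil => simp
  | cons a L ih =>
    simp only [List.foldr_cons]
    split_ifs with h
    · rw [Nat.testBit_or, Bool.or_eq_true, ih, Nat.testBit_two_pow]
      simp only [decide_eq_true_eq, List.mem_cons]
      constructor
      · rintro (rfl | ⟨h1, h2⟩)
        exacts [⟨Or.inl rfl, h⟩, ⟨Or.inr h1, h2⟩]
      · rintro ⟨rfl | h1, h2⟩
        exacts [Or.inl rfl, Or.inr ⟨h1, h2⟩]
    · rw [ih]
      simp only [List.mem_cons]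
      constructor
      · rintro ⟨h1, h2⟩; exact ⟨Or.inr h1, h2⟩
      · rintro ⟨rfl | h1, h2⟩
        exacts [absurd h2 h, ⟨h1, h2⟩]

theorem ofMask_toMask (s : Finset GolayPt) : ofMask (toMask s) = s := by
  ext p
  rw [mem_ofMask, toMask, testBit_foldr (fun i => pt i ∈ s)]
  simp [idx_lt p, pt_idx p]

theorem toMask_lt (s : Finset GolayPt) : toMask s < 2 ^ 24 := by
  refine Nat.lt_pow_two_of_testBit _ fun i hi => ?_
  by_contra h
  rw [Bool.not_eq_false, toMask, testBit_foldr (fun i => pt i ∈ s)] at h
  simp at h
  omega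

theorem exists_mask (s : Finset GolayPt) : ∃ m, m < 2 ^ 24 ∧ ofMask m = s :=
  ⟨toMask s, toMask_lt s, ofMask_toMask s⟩

/-! ### Boolean combinations -/

theorem ofMask_subset_iff {a b : ℕ} (ha : a < 2 ^ 24) (hb : b < 2 ^ 24) :
    ofMask a ⊆ ofMask b ↔ a &&& b = a := by
  rw [← Finset.inter_eq_left, ← ofMask_and]
  constructor
  · exact fun h => ofMask_inj (Nat.and_lt_two_pow _ hb) ha h
  · intro h; rw [h]

theorem ofMask_disjoint_iff {a b : ℕ} (hb : b < 2 ^ 24) :
    Disjoint (ofMask a) (ofMask b) ↔ a &&& b = 0 := by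
  rw [Finset.disjoint_iff_inter_eq_empty, ← ofMask_and, ← ofMask_zero]
  constructor
  · exact fun h => ofMask_inj (Nat.and_lt_two_pow _ hb) (by norm_num) h
  · intro h; rw [h]

theorem ofMask_compl {a : ℕ} : ofMask (a ^^^ 16777215) = (ofMask a)ᶜ := by
  ext p
  have h : Nat.testBit 16777215 (idx p) = true := by
    have : ∀ i < 24, Nat.testBit 16777215 i = true := by decide
    exact this _ (idx_lt p)
  simp [Nat.testBit_xor, h]

/-! ### Permutations given by lists -/

/-- Image of a mask under the list of images of the positions `k, k+1, ...`. -/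
def actFrom : List ℕ → ℕ → ℕ → ℕ
  | [], _, _ => 0
  | a :: l, k, m => bif m.testBit k then 2 ^ a ||| actFrom l (k + 1) m else actFrom l (k + 1) m

/-- Image of a mask under a list of images. -/
def actL (l : List ℕ) (m : ℕ) : ℕ := actFrom l 0 m

theorem testBit_actFrom (l : List ℕ) (k m j : ℕ) :
    (actFrom l k m).testBit j = true ↔
      ∃ i, m.testBit (k + i) = true ∧ l[i]? = some j := by
  induction l generalizing k with
  | nil => simp [actFrom]
  | cons a l ih =>
    have key : (∃ i, m.testBit (k + i) = true ∧ (a :: l)[i]? = some j) ↔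
        (m.testBit k = true ∧ a = j) ∨ ∃ i, m.testBit (k + 1 + i) = true ∧ l[i]? = some j := by
      constructor
      · rintro ⟨i, h1, h2⟩
        cases i with
        | zero => left; exact ⟨by simpa using h1, by simpa using h2⟩
        | succ i => right; exact ⟨i, by rw [add_assoc, add_comm 1 i]; exact h1, by simpa using h2⟩
      · rintro (⟨h1, rfl⟩ | ⟨i, h1, h2⟩)
        · exact ⟨0, by simpa using h1, by simp⟩
        · exact ⟨i + 1, by rw [add_comm i 1, ← add_assoc]; exact h1, by simpa using h2⟩
    rw [key, actFrom]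
    cases h : m.testBit k
    · rw [cond_false, ih]
      simp
    · rw [cond_true, Nat.testBit_or, Bool.or_eq_true, ih, Nat.testBit_two_pow]
      simp

/-- The function on points given by a list of images. -/
def funOf (l : List ℕ) (p : GolayPt) : GolayPt := pt (l.getD (idx p) 0)

/-- A list of 24 distinct numbers below 24. -/
def validL (l : List ℕ) : Bool :=
  l.length == 24 && (l.all fun a => decide (a < 24)) &&
    (l.foldr (fun a m => 2 ^ a ||| m) 0 == 16777215)

/-- The permutation given by a list of images (identity if the list is no permutation). -/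
noncomputable def permOf (l : List ℕ) : Equiv.Perm GolayPt :=
  if h : Function.Bijective (funOf l) then Equiv.ofBijective _ h else 1

theorem funOf_bijective {l : List ℕ} (hl : validL l = true) : Function.Bijective (funOf l) := by
  simp only [validL, Bool.and_eq_true, beq_iff_eq, List.all_eq_true, decide_eq_true_eq] at hl
  obtain ⟨⟨hlen, _⟩, hfull⟩ := hl
  have hsurj : Function.Surjective (funOf l) := by
    intro q
    have hq : (l.foldr (fun a m => 2 ^ a ||| m) 0).testBit (idx q) = true := by
      rw [hfull]
      have : ∀ i < 24, Nat.testBit 16777215 i = true := by decide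
      exact this _ (idx_lt q)
    have hq' : ((l.foldr (fun i m => if True then 2 ^ i ||| m else m) 0)).testBit (idx q) = true := by
      simpa using hq
    rw [testBit_foldr (fun _ => True)] at hq'
    obtain ⟨i, hi, hi'⟩ := List.getElem_of_mem hq'.1
    refine ⟨pt i, ?_⟩
    rw [funOf, idx_pt i (by omega), List.getD_eq_getElem _ _ hi, hi', pt_idx]
  exact Finite.surjective_iff_bijective.mp hsurj

theorem permOf_apply {l : List ℕ} (hl : validL l = true) (p : GolayPt) :
    permOf l p = pt (l.getD (idx p) 0) := by
  rw [permOf, dif_pos (funOf_bijective hl)]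
  rfl

theorem permOf_pt {l : List ℕ} (hl : validL l = true) {i : ℕ} (hi : i < 24) :
    permOf l (pt i) = pt (l.getD i 0) := by
  rw [permOf_apply hl, idx_pt i hi]

theorem idx_permOf {l : List ℕ} (hl : validL l = true) (p : GolayPt) :
    idx (permOf l p) = l.getD (idx p) 0 := by
  rw [permOf_apply hl]
  simp only [validL, Bool.and_eq_true, beq_iff_eq, List.all_eq_true, decide_eq_true_eq] at hl
  refine idx_pt _ (hl.1.2 _ ?_)
  rw [List.getD_eq_getElem _ _ (by rw [hl.1.1]; exact idx_lt p)]
  exact List.getElem_mem _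

theorem smul_ofMask {l : List ℕ} (hl : validL l = true) (m : ℕ) :
    permOf l • ofMask m = ofMask (actL l m) := by
  have hlen : l.length = 24 := by
    simp only [validL, Bool.and_eq_true, beq_iff_eq] at hl; exact hl.1.1
  ext q
  rw [Finset.mem_smul_finset, mem_ofMask, actL, testBit_actFrom]
  constructor
  · rintro ⟨p, hp, rfl⟩
    refine ⟨idx p, by simpa using hp, ?_⟩
    have h : idx p < l.length := by rw [hlen]; exact idx_lt p
    show l[idx p]? = some (idx (permOf l p))
    rw [idx_permOf hl, List.getD_eq_getElem _ _ h]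
    exact List.getElem?_eq_getElem h
  · rintro ⟨i, hb, hi⟩
    obtain ⟨hi', hi''⟩ := List.getElem?_eq_some_iff.mp hi
    refine ⟨pt i, by simpa [idx_pt i (by omega)] using hb, ?_⟩
    show permOf l (pt i) = q
    rw [permOf_pt hl (by omega), List.getD_eq_getElem _ _ hi', hi'', pt_idx]

theorem actL_lt {l : List ℕ} (hl : validL l = true) (m : ℕ) : actL l m < 2 ^ 24 := by
  refine Nat.lt_pow_two_of_testBit _ fun j hj => ?_
  by_contra h
  rw [Bool.not_eq_false, actL, testBit_actFrom] at h
  obtain ⟨i, _, hi⟩ := h
  obtain ⟨hi', hi''⟩ := List.getElem?_eq_some_iff.mp hi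
  simp only [validL, Bool.and_eq_true, beq_iff_eq, List.all_eq_true, decide_eq_true_eq] at hl
  have := hl.1.2 _ (List.getElem_mem hi')
  omega

end Cfsg.Agent.M24Geo
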