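import Cfsg.Agent.M24Geo.Base

/-! The length-24 code in the bitmask encoding, and membership in `M24`. -/

set_option autoImplicit false

namespace Cfsg.Agent.M24Geo

open scoped Pointwise
open Cfsg

/-- Echelon basis of the code: row `i` is the only one with bit `i`, for `i < 12`. -/
def rows : List ℕ :=
  [13062145, 4845570, 9691140, 7221256, 14442512, 15806496, 11243584, 2019456, 4038912, 8077824,
    16155648, 10811392]

/-- Masks of the generating words `qrWord t` and the all-ones word. -/
def genMasks : List ℕ :=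
  [681662, 1363324, 2726648, 5453296, 10906592, 5035970, 10071940, 3366666, 6733332, 13466664,
    10156114, 3535014, 7070028, 14140056, 11502898, 6228582, 12457164, 8137114, 16274228, 15771242,
    14765270, 12753326, 8729438, 16777215]

/-- Each echelon row as a sum of generators. -/
def rowExpr : List (List ℕ) :=
  [[0, 2, 5, 9, 10, 23], [2, 3, 7], [3, 4, 8], [2, 3, 4, 5, 7, 9], [3, 4, 5, 6, 8, 10],
    [0, 1, 2, 3, 4, 7], [1, 4, 5, 7, 8], [3, 5, 6, 7, 8, 9], [4, 6, 7, 8, 9, 10], [0, 1, 6, 8, 10],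
    [0, 2, 5, 6], [1, 2, 6]]

/-- The sum of the rows selected by the bits `k, k+1, ...` of `m`. -/
def projFrom : List ℕ → ℕ → ℕ → ℕ
  | [], _, _ => 0
  | r :: L, k, m => bif m.testBit k then r ^^^ projFrom L (k + 1) m else projFrom L (k + 1) m

/-- The codeword agreeing with `m` on the first twelve positions. -/
def projC (m : ℕ) : ℕ := projFrom rows 0 m

/-- Membership in the code, on masks. -/
def inCode (m : ℕ) : Bool := projC m == m

/-- All sums of sublists. -/
def spanList : List ℕ → List ℕ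
  | [] => [0]
  | r :: L => (spanList L).flatMap fun x => [x, r ^^^ x]

/-- All 4096 codewords. -/
def codeList : List ℕ := spanList rows

theorem projFrom_xor (L : List ℕ) (k a b : ℕ) :
    projFrom L k (a ^^^ b) = projFrom L k a ^^^ projFrom L k b := by
  induction L generalizing k with
  | nil => simp [projFrom]
  | cons r L ih =>
    simp only [projFrom, Nat.testBit_xor, ih]
    cases a.testBit k <;> cases b.testBit k <;>
      simp [Nat.xor_assoc, Nat.xor_left_comm]

theorem inCode_xor {a b : ℕ} (ha : inCode a = true) (hb : inCode b = true) :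
    inCode (a ^^^ b) = true := by
  simp only [inCode, projC, beq_iff_eq] at *
  rw [projFrom_xor, ha, hb]

theorem inCode_zero : inCode 0 = true := by decide

theorem projFrom_mem_span (L : List ℕ) (k m : ℕ) : projFrom L k m ∈ spanList L := by
  induction L generalizing k with
  | nil => simp [projFrom, spanList]
  | cons r L ih =>
    simp only [projFrom, spanList, List.mem_flatMap]
    refine ⟨_, ih (k + 1), ?_⟩
    cases m.testBit k <;> simp

theorem mem_codeList {m : ℕ} (h : inCode m = true) : m ∈ codeList := by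
  rw [inCode, beq_iff_eq] at h
  rw [← h]
  exact projFrom_mem_span _ _ _

theorem projFrom_lt (L : List ℕ) (hL : ∀ r ∈ L, r < 2 ^ 24) (k m : ℕ) :
    projFrom L k m < 2 ^ 24 := by
  induction L generalizing k with
  | nil => simp [projFrom]
  | cons r L ih =>
    simp only [List.mem_cons, forall_eq_or_imp] at hL
    rw [projFrom]
    cases m.testBit k
    · exact ih hL.2 _
    · exact Nat.xor_lt_two_pow hL.1 (ih hL.2 _)

theorem inCode_lt {m : ℕ} (h : inCode m = true) : m < 2 ^ 24 := by
  rw [inCode, beq_iff_eq] at h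
  rw [← h]
  exact projFrom_lt _ (by decide) _ _

theorem support₂_add (v w : GolayPt → ZMod 2) :
    support₂ (v + w) = symmDiff (support₂ v) (support₂ w) := by
  have h : ∀ a b : ZMod 2, a + b ≠ 0 ↔ (a ≠ 0 ∧ ¬ b ≠ 0) ∨ (b ≠ 0 ∧ ¬ a ≠ 0) := by decide
  ext p
  simp only [support₂, Finset.mem_filter, Finset.mem_univ, true_and, Finset.mem_symmDiff,
    Pi.add_apply]
  exact h _ _

theorem support₂_zero : support₂ (0 : GolayPt → ZMod 2) = ofMask 0 := by
  rw [ofMask_zero]; ext p; simp [support₂]

set_option maxRecDepth 10000 in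
theorem support₂_qrWord (t : ZMod 23) : support₂ (qrWord t) = ofMask (genMasks.getD t.val 0) := by
  have h : ∀ t : ZMod 23, ∀ p : GolayPt,
      (qrWord t p ≠ 0) ↔ (genMasks.getD t.val 0).testBit (idx p) = true := by decide +kernel
  ext p
  simp only [support₂, Finset.mem_filter, Finset.mem_univ, true_and, mem_ofMask]
  exact h t p

theorem support₂_one : support₂ (1 : GolayPt → ZMod 2) = ofMask 16777215 := by
  ext p
  have h : Nat.testBit 16777215 (idx p) = true :=
    (by decide : ∀ i < 24, Nat.testBit 16777215 i = true) _ (idx_lt p)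
  simp [support₂, h]

theorem inCode_genMasks : genMasks.all inCode = true := by decide +kernel

theorem exists_mask_of_mem_code {w : GolayPt → ZMod 2} (hw : w ∈ golayCode) :
    ∃ m, inCode m = true ∧ support₂ w = ofMask m := by
  have hall := List.all_eq_true.mp inCode_genMasks
  refine Submodule.span_induction ?_ ⟨0, inCode_zero, support₂_zero⟩ ?_ ?_ hw
  · rintro x (⟨t, rfl⟩ | rfl)
    · refine ⟨_, hall _ ?_, support₂_qrWord t⟩
      have ht : t.val < genMasks.length :=
        lt_trans (ZMod.val_lt t) (by decide)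
      rw [List.getD_eq_getElem _ _ ht]
      exact List.getElem_mem _
    · exact ⟨_, by decide +kernel, support₂_one⟩
  · rintro x y _ _ ⟨a, ha, hxa⟩ ⟨b, hb, hyb⟩
    exact ⟨a ^^^ b, inCode_xor ha hb, by rw [support₂_add, hxa, hyb, ofMask_xor]⟩
  · intro c x _ hx
    have hc : ∀ c : ZMod 2, c = 0 ∨ c = 1 := by decide
    rcases hc c with rfl | rfl
    · exact ⟨0, inCode_zero, by rw [zero_smul, support₂_zero]⟩
    · rwa [one_smul]

theorem gen_word {j : ℕ} (hj : j < 24) :
    ∃ w ∈ golayCode, support₂ w = ofMask (genMasks.getD j 0) := by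
  by_cases h : j < 23
  · refine ⟨qrWord (j : ZMod 23), Submodule.subset_span (Or.inl ⟨_, rfl⟩), ?_⟩
    rw [support₂_qrWord, ZMod.val_natCast, Nat.mod_eq_of_lt h]
  · obtain rfl : j = 23 := by omega
    exact ⟨1, Submodule.subset_span (Or.inr rfl), support₂_one⟩

theorem exprs_word (e : List ℕ) (he : ∀ j ∈ e, j < 24) :
    ∃ w ∈ golayCode, support₂ w = ofMask (e.foldr (fun j a => genMasks.getD j 0 ^^^ a) 0) := by
  induction e with
  | nil => exact ⟨0, Submodule.zero_mem _, support₂_zero⟩
  | cons j e ih =>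
    simp only [List.mem_cons, forall_eq_or_imp] at he
    obtain ⟨v, hv, hv'⟩ := gen_word he.1
    obtain ⟨w, hw, hw'⟩ := ih he.2
    exact ⟨v + w, Submodule.add_mem _ hv hw,
      by rw [support₂_add, hv', hw', List.foldr_cons, ofMask_xor]⟩

theorem row_word : ∀ r ∈ rows, ∃ w ∈ golayCode, support₂ w = ofMask r := by
  have h1 : rowExpr.map (fun e => e.foldr (fun j a => genMasks.getD j 0 ^^^ a) 0) = rows := by
    decide +kernel
  intro r hr
  rw [← h1, List.mem_map] at hr
  obtain ⟨e, he, rfl⟩ := hr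
  have h2 : ∀ e ∈ rowExpr, ∀ j ∈ e, j < 24 := by decide
  exact exprs_word e (h2 e he)

theorem projFrom_word (L : List ℕ) (hL : ∀ r ∈ L, ∃ w ∈ golayCode, support₂ w = ofMask r)
    (k m : ℕ) : ∃ w ∈ golayCode, support₂ w = ofMask (projFrom L k m) := by
  induction L generalizing k with
  | nil => exact ⟨0, Submodule.zero_mem _, support₂_zero⟩
  | cons r L ih =>
    simp only [List.mem_cons, forall_eq_or_imp] at hL
    obtain ⟨w, hw, hw'⟩ := ih hL.2 (k + 1)
    rw [projFrom]
    cases m.testBit k
    · exact ⟨w, hw, hw'⟩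
    · obtain ⟨v, hv, hv'⟩ := hL.1
      exact ⟨v + w, Submodule.add_mem _ hv hw, by rw [cond_true, support₂_add, hv', hw', ofMask_xor]⟩

theorem mem_supports_iff {s : Finset GolayPt} :
    s ∈ supports (golayCode : Set (GolayPt → ZMod 2)) ↔ ∃ m, inCode m = true ∧ ofMask m = s := by
  constructor
  · rintro ⟨w, hw, rfl⟩
    obtain ⟨m, hm, hm'⟩ := exists_mask_of_mem_code hw
    exact ⟨m, hm, hm'.symm⟩
  · rintro ⟨m, hm, rfl⟩
    obtain ⟨w, hw, hw'⟩ := projFrom_word rows row_word 0 m
    rw [inCode, beq_iff_eq] at hm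
    exact ⟨w, hw, by rw [hw', ← projC, hm]⟩

/-- A word of weight `n`, on masks. -/
def isWord (n m : ℕ) : Bool := inCode m && popc m == n

theorem mem_wordsOfWeight_iff {n : ℕ} {s : Finset GolayPt} :
    s ∈ wordsOfWeight (golayCode : Set (GolayPt → ZMod 2)) n ↔
      ∃ m, isWord n m = true ∧ ofMask m = s := by
  simp only [wordsOfWeight, Set.mem_ofPred_eq, mem_supports_iff, isWord, Bool.and_eq_true, beq_iff_eq]
  constructor
  · rintro ⟨⟨m, hm, rfl⟩, hc⟩
    exact ⟨m, ⟨hm, by rw [← card_ofMask, hc]⟩, rfl⟩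
  · rintro ⟨m, ⟨hm, hc⟩, rfl⟩
    exact ⟨⟨m, hm, rfl⟩, by rw [card_ofMask, hc]⟩

/-- The words of weight `n`. -/
def wordList (n : ℕ) : List ℕ := codeList.filter fun m => popc m == n

theorem mem_wordList {n m : ℕ} (h : isWord n m = true) : m ∈ wordList n := by
  rw [isWord, Bool.and_eq_true] at h
  exact List.mem_filter.mpr ⟨mem_codeList h.1, h.2⟩

theorem isWord_ofMask {n m : ℕ} (hm : m < 2 ^ 24)
    (h : ofMask m ∈ wordsOfWeight (golayCode : Set (GolayPt → ZMod 2)) n) : isWord n m = true := by
  obtain ⟨m', hm', he⟩ := mem_wordsOfWeight_iff.mp h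
  rw [isWord, Bool.and_eq_true] at hm'
  rw [← ofMask_inj (inCode_lt hm'.1) hm he, isWord, hm'.1, hm'.2]
  rfl

theorem ofMask_mem_octads {m : ℕ} (hm : m < 2 ^ 24) : ofMask m ∈ octads ↔ isWord 8 m = true :=
  ⟨isWord_ofMask hm, fun h => mem_wordsOfWeight_iff.mpr ⟨m, h, rfl⟩⟩

/-! ### Membership in `M24` -/

theorem mem_M24_iff {g : Equiv.Perm GolayPt} :
    g ∈ M24 ↔ ∀ s ∈ supports (golayCode : Set (GolayPt → ZMod 2)),
      g • s ∈ supports (golayCode : Set (GolayPt → ZMod 2)) :=
  MulAction.mem_stabilizer_set' (Set.toFinite _)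

theorem smul_mem_words {g : Equiv.Perm GolayPt} (hg : g ∈ M24) {n : ℕ} {s : Finset GolayPt}
    (hs : s ∈ wordsOfWeight (golayCode : Set (GolayPt → ZMod 2)) n) :
    g • s ∈ wordsOfWeight (golayCode : Set (GolayPt → ZMod 2)) n :=
  ⟨mem_M24_iff.mp hg s hs.1, by rw [Finset.card_smul_finset]; exact hs.2⟩

/-- A valid list preserving the code. -/
def autL (l : List ℕ) : Bool := validL l && rows.all fun r => inCode (actL l r)

theorem actL_xor {l : List ℕ} (hl : validL l = true) (a b : ℕ) :
    actL l (a ^^^ b) = actL l a ^^^ actL l b := by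
  refine ofMask_inj (actL_lt hl _) (Nat.xor_lt_two_pow (actL_lt hl _) (actL_lt hl _)) ?_
  rw [ofMask_xor, ← smul_ofMask hl, ← smul_ofMask hl, ← smul_ofMask hl, ofMask_xor]
  exact Finset.smul_finset_symmDiff ..

theorem inCode_actL {l : List ℕ} (hl : validL l = true) (L : List ℕ)
    (hL : ∀ r ∈ L, inCode (actL l r) = true) (k m : ℕ) :
    inCode (actL l (projFrom L k m)) = true := by
  induction L generalizing k with
  | nil =>
    have : actL l 0 = 0 := by
      refine ofMask_inj (actL_lt hl _) (by norm_num) ?_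
      rw [← smul_ofMask hl, ofMask_zero, Finset.smul_finset_empty]
    rw [projFrom, this]; exact inCode_zero
  | cons r L ih =>
    simp only [List.mem_cons, forall_eq_or_imp] at hL
    rw [projFrom]
    cases m.testBit k
    · exact ih hL.2 _
    · rw [cond_true, actL_xor hl]; exact inCode_xor hL.1 (ih hL.2 _)

theorem permOf_mem_M24 {l : List ℕ} (h : autL l = true) : permOf l ∈ M24 := by
  simp only [autL, Bool.and_eq_true, List.all_eq_true] at h
  rw [mem_M24_iff]
  intro s hs
  obtain ⟨m, hm, rfl⟩ := mem_supports_iff.mp hs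
  rw [smul_ofMask h.1, mem_supports_iff]
  rw [inCode, beq_iff_eq] at hm
  refine ⟨_, ?_, rfl⟩
  rw [← hm]
  exact inCode_actL h.1 rows h.2 0 m

end Cfsg.Agent.M24Geo
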