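import Cfsg.Agent.M24Geo.Orbit

/-!
An `M24`-orbit of objects with a relation invariant separating the orbits of a point stabiliser,
as read off from an orbit certificate.
-/

set_option autoImplicit false

namespace Cfsg.Agent.M24Geo

open scoped Pointwise
open Cfsg

/-- Strictly increasing list. -/
def sortedB : List ℕ → Bool
  | a :: b :: L => Nat.blt a b && sortedB (b :: L)
  | _ => true

theorem sortedB_pairwise : ∀ {L : List ℕ}, sortedB L = true → L.Pairwise (· < ·)
  | [], _ => List.Pairwise.nil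
  | [_], _ => List.pairwise_singleton _ _
  | a :: b :: L, h => by
    rw [sortedB, Bool.and_eq_true, Nat.blt_eq] at h
    have hp := sortedB_pairwise h.2
    refine List.Pairwise.cons ?_ hp
    intro c hc
    rcases List.mem_cons.mp hc with rfl | hc
    · exact h.1
    · exact lt_trans h.1 ((List.pairwise_cons.mp hp).1 c hc)

theorem sortedB_nodup {L : List ℕ} (h : sortedB L = true) : L.Nodup :=
  (sortedB_pairwise h).imp fun hab => ne_of_lt hab

/-- A transitive family with separating invariant. -/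
structure Family (α : Type) [MulAction (Equiv.Perm GolayPt) α] where
  /-- the objects -/
  X : Set α
  /-- the invariant of an ordered pair -/
  R : α → α → ℕ
  /-- number of objects in each relation with a given one -/
  cnt : ℕ → ℕ
  smul_mem : ∀ g ∈ M24, ∀ x ∈ X, g • x ∈ X
  R_smul : ∀ g ∈ M24, ∀ (x y : α), R (g • x) (g • y) = R x y
  base : α
  base_mem : base ∈ X
  trans_base : ∀ x ∈ X, ∃ g ∈ M24, g • base = x
  separates : ∀ y ∈ X, ∀ z ∈ X, R base y = R base z →
    ∃ g ∈ M24, g • base = base ∧ g • y = z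
  count_base : ∀ v, {y ∈ X | R base y = v}.ncard = cnt v

namespace Family

variable {α : Type} [MulAction (Equiv.Perm GolayPt) α] (F : Family α)

theorem transitive {x y : α} (hx : x ∈ F.X) (hy : y ∈ F.X) : ∃ g ∈ M24, g • x = y := by
  obtain ⟨g, hg, rfl⟩ := F.trans_base x hx
  obtain ⟨h, hh, rfl⟩ := F.trans_base y hy
  exact ⟨h * g⁻¹, mul_mem hh (inv_mem hg), by rw [mul_smul, inv_smul_smul]⟩

theorem stab_trans {x y z : α} (hx : x ∈ F.X) (hy : y ∈ F.X) (hz : z ∈ F.X)
    (h : F.R x y = F.R x z) : ∃ g ∈ M24, g • x = x ∧ g • y = z := by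
  obtain ⟨g, hg, rfl⟩ := F.trans_base x hx
  have hy' := F.smul_mem _ (inv_mem hg) y hy
  have hz' := F.smul_mem _ (inv_mem hg) z hz
  have h' : F.R F.base (g⁻¹ • y) = F.R F.base (g⁻¹ • z) := by
    rw [← F.R_smul g hg, ← F.R_smul g hg (y := g⁻¹ • z), smul_inv_smul, smul_inv_smul, h]
  obtain ⟨k, hk, hk1, hk2⟩ := F.separates _ hy' _ hz' h'
  refine ⟨g * k * g⁻¹, mul_mem (mul_mem hg hk) (inv_mem hg), ?_, ?_⟩
  · rw [mul_smul, mul_smul, inv_smul_smul, hk1]
  · rw [mul_smul, mul_smul, hk2, smul_inv_smul]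

theorem count {x : α} (hx : x ∈ F.X) (v : ℕ) : {y ∈ F.X | F.R x y = v}.ncard = F.cnt v := by
  obtain ⟨g, hg, rfl⟩ := F.trans_base x hx
  rw [← F.count_base v]
  have : {y ∈ F.X | F.R (g • F.base) y = v} = (fun y => g • y) '' {y ∈ F.X | F.R F.base y = v} := by
    ext y
    simp only [Set.mem_ofPred_eq, Set.mem_image]
    constructor
    · rintro ⟨hy, h⟩
      refine ⟨g⁻¹ • y, ⟨F.smul_mem _ (inv_mem hg) y hy, ?_⟩, smul_inv_smul _ _⟩
      rw [← F.R_smul g hg, smul_inv_smul, h]
    · rintro ⟨z, ⟨hz, h⟩, rfl⟩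
      exact ⟨F.smul_mem g hg z hz, by rw [F.R_smul g hg, h]⟩
  rw [this]
  exact Set.ncard_image_of_injective _ (MulAction.injective g)

theorem orbit_eq {x : α} (hx : x ∈ F.X) : MulAction.orbit M24 x = F.X := by
  ext y
  constructor
  · rintro ⟨g, rfl⟩
    exact F.smul_mem _ g.2 x hx
  · intro hy
    obtain ⟨g, hg, rfl⟩ := F.transitive hx hy
    exact ⟨⟨g, hg⟩, rfl⟩

theorem stab_orbit_eq {x y : α} (hx : x ∈ F.X) (hy : y ∈ F.X) :
    MulAction.orbit (MulAction.stabilizer M24 x) y = {z ∈ F.X | F.R x z = F.R x y} := by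
  ext z
  constructor
  · rintro ⟨g, rfl⟩
    refine ⟨F.smul_mem _ (g : M24).2 y hy, ?_⟩
    have hg : ((g : M24) : Equiv.Perm GolayPt) • x = x := MulAction.mem_stabilizer_iff.mp g.2
    show F.R x (((g : M24) : Equiv.Perm GolayPt) • y) = F.R x y
    have h := F.R_smul ((g : M24) : Equiv.Perm GolayPt) (g : M24).2 x y
    rwa [hg] at h
  · rintro ⟨hz, h⟩
    obtain ⟨g, hg, hgx, rfl⟩ := F.stab_trans hx hy hz h.symm
    exact ⟨⟨⟨g, hg⟩, MulAction.mem_stabilizer_iff.mpr hgx⟩, rfl⟩

theorem exists_related {x : α} (hx : x ∈ F.X) {v : ℕ} (hv : F.cnt v ≠ 0) :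
    ∃ y ∈ F.X, F.R x y = v := by
  rw [← F.count hx v] at hv
  obtain ⟨y, hy⟩ := Set.nonempty_of_ncard_ne_zero hv
  exact ⟨y, hy.1, hy.2⟩

theorem stab_orbit_ncard {x y : α} (hx : x ∈ F.X) (hy : y ∈ F.X) :
    (MulAction.orbit (MulAction.stabilizer M24 x) y).ncard = F.cnt (F.R x y) := by
  rw [F.stab_orbit_eq hx hy, F.count hx]

theorem ncard_eq {x : α} (hx : x ∈ F.X) (hfin : F.X.Finite) {n : ℕ} (val : Fin n → ℕ)
    (hval : ∀ y ∈ F.X, ∃ i, val i = F.R x y) (hinj : Function.Injective val) :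
    F.X.ncard = ∑ i, F.cnt (val i) := by
  classical
  rw [Set.ncard_eq_toFinset_card _ hfin,
    Finset.card_eq_sum_card_fiberwise (f := F.R x) (t := Finset.univ.image val)
      fun y hy => by
        obtain ⟨i, hi⟩ := hval y ((Set.Finite.mem_toFinset _).mp hy)
        exact Finset.mem_image.mpr ⟨i, Finset.mem_univ _, hi⟩,
    Finset.sum_image hinj.injOn]
  refine Finset.sum_congr rfl fun i _ => ?_
  rw [← F.count hx (val i), ← Set.ncard_coe_finset]
  congr 1
  ext y
  simp

/-- Maximality of the stabiliser from the arithmetic of the suborbit lengths. -/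
theorem isCoatom {x : α} (hx : x ∈ F.X) {n : ℕ} [NeZero n] (val : Fin n → ℕ) (size : Fin n → ℕ)
    (hval : ∀ y ∈ F.X, ∃ i, val i = F.R x y) (hinj : Function.Injective val)
    (h0 : val 0 = F.R x x) (hsize : ∀ i, F.cnt (val i) = size i) (hN : 1 < ∑ i, size i)
    (harith : ∀ f : Fin n → Bool,
      (∑ i, if f i then size i else 0) ∣ (∑ i, size i) → f 0 = true →
        (∑ i, if f i then size i else 0) = 1 ∨ (∑ i, if f i then size i else 0) = ∑ i, size i) :
    IsCoatom (MulAction.stabilizer M24 x) := by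
  classical
  let c : α → Fin n := fun y => if h : ∃ i, val i = F.R x y then h.choose else 0
  have hc : ∀ y ∈ F.X, val (c y) = F.R x y := by
    intro y hy
    simp only [c, dif_pos (hval y hy)]
    exact (hval y hy).choose_spec
  have hfin : F.X.Finite := by rw [← F.orbit_eq hx]; exact Set.finite_range _
  refine isCoatom_of_classes x c size (∑ i, size i) ?_ ?_ ?_ hN ?_
  · rw [F.orbit_eq hx, F.ncard_eq hx hfin val hval hinj]
    exact Finset.sum_congr rfl fun i _ => hsize i
  · intro i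
    rw [F.orbit_eq hx, ← hsize i, ← F.count hx (val i)]
    congr 1
    ext y
    simp only [Set.mem_ofPred_eq]
    refine and_congr_right fun hy => ?_
    rw [← hc y hy]
    exact hinj.eq_iff.symm
  · intro y hy z hz h
    rw [F.orbit_eq hx] at hy hz
    obtain ⟨g, hg, hgx, rfl⟩ := F.stab_trans hx hy hz (by rw [← hc y hy, ← hc z hz, h])
    exact ⟨⟨g, hg⟩, MulAction.mem_stabilizer_iff.mpr hgx, rfl⟩
  · intro f hd hf
    have : c x = 0 := hinj (by rw [hc x hx, h0])
    exact harith f hd (this ▸ hf)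

end Family

/-- Data checked by the kernel for a family. -/
structure CertOK (T : OT) (step : List ℕ → ℕ → ℕ → Bool) (gens : List (List ℕ)) (roots : List ℕ)
    (root : ℕ) (kinv : ℕ → ℕ) : Prop where
  check : T.check step gens roots = true
  auts : gens.all autL = true
  fixes : (gens.all fun l => step l root root) = true
  sep : (roots.map kinv).Nodup
  sorted : sortedB T.keys = true

theorem CertOK.separates {α : Type} [MulAction (Equiv.Perm GolayPt) α] {T : OT}
    {step : List ℕ → ℕ → ℕ → Bool} {gens : List (List ℕ)} {roots : List ℕ} {root : ℕ}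
    {kinv : ℕ → ℕ} (C : CertOK T step gens roots root kinv) {dec : ℕ → α}
    (hstep : StepSound dec step) {X : Set α} {R : α → α → ℕ}
    (R_smul : ∀ g ∈ M24, ∀ (x y : α), R (g • x) (g • y) = R x y)
    (hX : ∀ y ∈ X, ∃ k ∈ T.keys, dec k = y)
    (hkinv : ∀ k ∈ roots, R (dec root) (dec k) = kinv k) :
    ∀ y ∈ X, ∀ z ∈ X, R (dec root) y = R (dec root) z →
      ∃ g ∈ M24, g • dec root = dec root ∧ g • y = z := by
  intro y hy z hz h
  obtain ⟨k, hk, rfl⟩ := hX y hy
  obtain ⟨k', hk', rfl⟩ := hX z hz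
  have hK := gens_le_stab hstep C.auts C.fixes
  obtain ⟨r, hr, g, hg, hge⟩ := orbit_cert hstep C.check C.auts _ hK k hk
  obtain ⟨r', hr', g', hg', hge'⟩ := orbit_cert hstep C.check C.auts _ hK k' hk'
  rw [Subgroup.mem_inf, MulAction.mem_stabilizer_iff] at hg hg'
  have h1 : R (dec root) (dec r) = R (dec root) (dec r') := by
    rw [← R_smul g hg.1, ← R_smul g' hg'.1 (dec root) (dec r'), hge, hge', hg.2, hg'.2, h]
  rw [hkinv r hr, hkinv r' hr'] at h1
  obtain rfl : r = r' := List.inj_on_of_nodup_map C.sep hr hr' h1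
  refine ⟨g' * g⁻¹, mul_mem hg'.1 (inv_mem hg.1), ?_, ?_⟩
  · rw [mul_smul, inv_smul_eq_iff.mpr hg.2.symm, hg'.2]
  · rw [← hge, mul_smul, inv_smul_smul, hge']

theorem CertOK.count {α : Type} [MulAction (Equiv.Perm GolayPt) α] {T : OT}
    {step : List ℕ → ℕ → ℕ → Bool} {gens : List (List ℕ)} {roots : List ℕ} {root : ℕ}
    {kinv : ℕ → ℕ} (C : CertOK T step gens roots root kinv) {dec : ℕ → α} {X : Set α}
    {R : α → α → ℕ} (hX : ∀ y ∈ X, ∃ k ∈ T.keys, dec k = y) (hk : ∀ k ∈ T.keys, dec k ∈ X)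
    (hinj : Set.InjOn dec {k | k ∈ T.keys})
    (hkinv : ∀ k ∈ T.keys, R (dec root) (dec k) = kinv k) (v : ℕ) :
    {y ∈ X | R (dec root) y = v}.ncard = (T.keys.filter fun k => kinv k == v).length := by
  rw [← List.toFinset_card_of_nodup ((sortedB_nodup C.sorted).filter _), ← Set.ncard_coe_finset,
    ← (hinj.mono fun k hk => (List.mem_filter.mp (List.mem_toFinset.mp hk)).1).ncard_image]
  congr 1
  ext y
  simp only [Set.mem_ofPred_eq, List.coe_toFinset, Set.mem_image, List.mem_filter, beq_iff_eq]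
  constructor
  · rintro ⟨hy, h⟩
    obtain ⟨k, hk', rfl⟩ := hX y hy
    exact ⟨k, ⟨hk', by rw [← hkinv k hk', h]⟩, rfl⟩
  · rintro ⟨k, ⟨hk', h⟩, rfl⟩
    exact ⟨hk k hk', by rw [hkinv k hk', h]⟩

end Cfsg.Agent.M24Geo
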