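import Cfsg.Agent.M24Geo.Code

/-!
Orbit certificates: a search tree of keys, each non-root key being the image of a key of smaller
rank under one of the given permutations. Also the counting criterion for a point stabiliser to be
a maximal subgroup.
-/

set_option autoImplicit false

namespace Cfsg.Agent.M24Geo

open scoped Pointwise
open Cfsg

/-- Search tree with nodes (key, generator, parent key, rank). -/
inductive OT : Type
  | leaf : OT
  | node (left : OT) (key gen par rank : ℕ) (right : OT) : OT

namespace OT

/-- All nodes in order. -/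
def nodes : OT → List (ℕ × ℕ × ℕ × ℕ)
  | leaf => []
  | node a k g p r b => nodes a ++ (k, g, p, r) :: nodes b

/-- Lookup of the rank of a key. -/
def find : OT → ℕ → Option ℕ
  | leaf, _ => none
  | node a k _ _ r b, x => bif x == k then some r else bif Nat.blt x k then find a x else find b x

/-- The keys in order. -/
def keys (T : OT) : List ℕ := T.nodes.map fun nd => nd.1

theorem find_mem {T : OT} {x r : ℕ} (h : T.find x = some r) :
    ∃ g p, (x, g, p, r) ∈ T.nodes := by
  induction T with
  | leaf => simp [find] at h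
  | node a k g p s b iha ihb =>
    simp only [find] at h
    by_cases h1 : x = k
    · subst h1
      simp at h
      subst h
      exact ⟨g, p, by simp [nodes]⟩
    · rw [show (x == k) = false by simpa using h1, cond_false] at h
      cases h2 : Nat.blt x k <;> rw [h2] at h
      · obtain ⟨g', p', hm⟩ := ihb h
        exact ⟨g', p', by simp [nodes, hm]⟩
      · obtain ⟨g', p', hm⟩ := iha h
        exact ⟨g', p', by simp [nodes, hm]⟩

theorem mem_keys_of_isSome {T : OT} {x : ℕ} (h : (T.find x).isSome = true) : x ∈ T.keys := by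
  obtain ⟨r, hr⟩ := Option.isSome_iff_exists.mp h
  obtain ⟨g, p, hm⟩ := find_mem hr
  exact List.mem_map.mpr ⟨_, hm, rfl⟩

/-- The certificate check. -/
def check (T : OT) (step : List ℕ → ℕ → ℕ → Bool) (gens : List (List ℕ)) (roots : List ℕ) : Bool :=
  T.nodes.all fun nd =>
    bif nd.2.2.2 == 0 then roots.contains nd.1
    else match T.find nd.2.2.1, gens[nd.2.1]? with
      | some r, some l => Nat.blt r nd.2.2.2 && step l nd.2.2.1 nd.1
      | _, _ => false

end OT

/-- Soundness of a step relation for a decoding of keys. -/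
def StepSound {α : Type*} [SMul (Equiv.Perm GolayPt) α] (dec : ℕ → α)
    (step : List ℕ → ℕ → ℕ → Bool) : Prop :=
  ∀ l p k, autL l = true → step l p k = true → permOf l • dec p = dec k

theorem orbit_cert {α : Type*} [MulAction (Equiv.Perm GolayPt) α] {dec : ℕ → α}
    {step : List ℕ → ℕ → ℕ → Bool} (hstep : StepSound dec step) {gens : List (List ℕ)}
    {roots : List ℕ} {T : OT} (hT : T.check step gens roots = true) (hgens : gens.all autL = true)
    (K : Subgroup (Equiv.Perm GolayPt)) (hK : ∀ l ∈ gens, permOf l ∈ K) :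
    ∀ k ∈ T.keys, ∃ r ∈ roots, ∃ g ∈ K, g • dec r = dec k := by
  have hgens' := List.all_eq_true.mp hgens
  have hT' := List.all_eq_true.mp hT
  have main : ∀ n, ∀ nd ∈ T.nodes, nd.2.2.2 ≤ n →
      ∃ r ∈ roots, ∃ g ∈ K, g • dec r = dec nd.1 := by
    intro n
    induction n with
    | zero =>
      intro nd hnd hle
      have h := hT' nd hnd
      rw [show (nd.2.2.2 == 0) = true by simpa using hle, cond_true] at h
      exact ⟨nd.1, by simpa using h, 1, one_mem _, one_smul _ _⟩
    | succ n ih =>
      intro nd hnd hle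
      have h := hT' nd hnd
      by_cases h0 : nd.2.2.2 = 0
      · exact ih nd hnd (by omega)
      rw [show (nd.2.2.2 == 0) = false by simpa using h0, cond_false] at h
      split at h
      · rename_i r l hr hl
        simp only [Bool.and_eq_true, Nat.blt_eq] at h
        obtain ⟨g', p', hm⟩ := OT.find_mem hr
        obtain ⟨root, hroot, g, hg, hge⟩ := ih _ hm (by simp only; omega)
        have hl' : l ∈ gens := List.mem_of_getElem? hl
        refine ⟨root, hroot, permOf l * g, mul_mem (hK l hl') hg, ?_⟩
        rw [mul_smul, hge]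
        exact hstep l _ _ (hgens' l hl') h.2
      · simp at h
  intro k hk
  obtain ⟨nd, hnd, rfl⟩ := List.mem_map.mp hk
  exact main _ nd hnd le_rfl

theorem gens_le_M24 {gens : List (List ℕ)} (h : gens.all autL = true) :
    ∀ l ∈ gens, permOf l ∈ M24 :=
  fun l hl => permOf_mem_M24 (List.all_eq_true.mp h l hl)

theorem gens_le_stab {α : Type*} [MulAction (Equiv.Perm GolayPt) α] {dec : ℕ → α}
    {step : List ℕ → ℕ → ℕ → Bool} (hstep : StepSound dec step) {gens : List (List ℕ)} {root : ℕ}
    (h : gens.all autL = true) (h' : (gens.all fun l => step l root root) = true) :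
    ∀ l ∈ gens, permOf l ∈ M24 ⊓ MulAction.stabilizer (Equiv.Perm GolayPt) (dec root) :=
  fun l hl => Subgroup.mem_inf.mpr ⟨gens_le_M24 h l hl,
    MulAction.mem_stabilizer_iff.mpr
      (hstep l _ _ (List.all_eq_true.mp h l hl) (List.all_eq_true.mp h' l hl))⟩

/-! ### Single masks -/

/-- Step on single masks. -/
def stepMask (l : List ℕ) (p k : ℕ) : Bool := actL l p == k

theorem stepMask_sound : StepSound ofMask stepMask := by
  intro l p k hl h
  simp only [autL, Bool.and_eq_true] at hl
  rw [stepMask, beq_iff_eq] at h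
  rw [smul_ofMask hl.1, h]

/-! ### Families of masks packed in one number -/

/-- The `n` masks packed in a number. -/
def masksOf : ℕ → ℕ → List ℕ
  | 0, _ => []
  | n + 1, k => k % 16777216 :: masksOf n (k / 16777216)

/-- Packing of a list of masks. -/
def pack : List ℕ → ℕ
  | [] => 0
  | a :: L => a + 16777216 * pack L

theorem masksOf_lt : ∀ n k, ∀ m ∈ masksOf n k, m < 2 ^ 24
  | 0, _ => by simp [masksOf]
  | n + 1, k => by
    intro m hm
    rw [masksOf, List.mem_cons] at hm
    rcases hm with rfl | hm
    · exact Nat.mod_lt _ (by norm_num)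
    · exact masksOf_lt n _ m hm

/-- The family of subsets packed in a number. -/
def decSets (n k : ℕ) : Finset (Finset GolayPt) := (masksOf n k).toFinset.image ofMask

theorem mem_decSets {n k : ℕ} {s : Finset GolayPt} :
    s ∈ decSets n k ↔ ∃ m ∈ masksOf n k, ofMask m = s := by
  simp [decSets]

/-- Mutual inclusion of two lists. -/
def sameSet (a b : List ℕ) : Bool := (a.all fun x => b.contains x) && b.all fun x => a.contains x

/-- Step on packed families. -/
def stepSets (n : ℕ) (l : List ℕ) (p k : ℕ) : Bool :=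
  sameSet ((masksOf n p).map (actL l)) (masksOf n k)

theorem sameSet_iff {a b : List ℕ} (h : sameSet a b = true) : ∀ x, x ∈ a ↔ x ∈ b := by
  simp only [sameSet, Bool.and_eq_true, List.all_eq_true, List.contains_iff_mem] at h
  exact fun x => ⟨h.1 x, h.2 x⟩

theorem stepSets_sound (n : ℕ) : StepSound (decSets n) (stepSets n) := by
  intro l p k hl h
  simp only [autL, Bool.and_eq_true] at hl
  have h' := sameSet_iff h
  ext s
  rw [Finset.mem_smul_finset]
  constructor
  · rintro ⟨t, ht, rfl⟩
    obtain ⟨m, hm, rfl⟩ := mem_decSets.mp ht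
    exact mem_decSets.mpr
      ⟨actL l m, (h' _).mp (List.mem_map_of_mem hm), (smul_ofMask hl.1 m).symm⟩
  · intro hs
    obtain ⟨m, hm, rfl⟩ := mem_decSets.mp hs
    obtain ⟨m', hm', rfl⟩ := List.mem_map.mp ((h' _).mpr hm)
    exact ⟨ofMask m', mem_decSets.mpr ⟨m', hm', rfl⟩, smul_ofMask hl.1 m'⟩

/-! ### Maximality of point stabilisers by counting -/

theorem isCoatom_of_classes {G α : Type*} [Group G] [MulAction G α] [Finite G] (x : α) {n : ℕ}
    (c : α → Fin n) (size : Fin n → ℕ) (N : ℕ)
    (hN : (MulAction.orbit G x).ncard = N)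
    (hsize : ∀ i, {y ∈ MulAction.orbit G x | c y = i}.ncard = size i)
    (htrans : ∀ y ∈ MulAction.orbit G x, ∀ z ∈ MulAction.orbit G x, c y = c z →
      ∃ g ∈ MulAction.stabilizer G x, g • y = z)
    (hN1 : 1 < N)
    (harith : ∀ f : Fin n → Bool,
      (∑ i, if f i then size i else 0) ∣ N → f (c x) = true →
        (∑ i, if f i then size i else 0) = 1 ∨ (∑ i, if f i then size i else 0) = N) :
    IsCoatom (MulAction.stabilizer G x) := by
  classical
  have hindex : (MulAction.stabilizer G x).index = N := by
    rw [MulAction.index_stabilizer, hN]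
  constructor
  · intro h
    rw [h, Subgroup.index_top] at hindex
    omega
  intro H hH
  set S := MulAction.stabilizer G x
  set B : Set α := MulAction.orbit H x with hB
  have hBY : B ⊆ MulAction.orbit G x := by
    rintro _ ⟨g, rfl⟩
    exact ⟨(g : G), rfl⟩
  have hfin : (MulAction.orbit G x).Finite := Set.finite_range _
  have hBfin : B.Finite := hfin.subset hBY
  have hcard : B.ncard * H.index = N := by
    rw [← hindex, ← Subgroup.relIndex_mul_index hH.le]
    congr 1
    rw [hB, ← MulAction.index_stabilizer]
    rfl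
  have hsat : ∀ y ∈ B, ∀ z ∈ MulAction.orbit G x, c y = c z → z ∈ B := by
    rintro _ ⟨h, rfl⟩ z hz hc
    obtain ⟨g, hg, rfl⟩ := htrans _ (hBY ⟨h, rfl⟩) z hz hc
    exact ⟨⟨g * h, mul_mem (hH.le hg) h.2⟩, mul_smul _ _ _⟩
  let f : Fin n → Bool := fun i => decide (∃ y ∈ B, c y = i)
  have hsum : B.ncard = ∑ i, if f i then size i else 0 := by
    rw [Set.ncard_eq_toFinset_card _ hBfin,
      Finset.card_eq_sum_card_fiberwise (f := c) (t := Finset.univ) fun _ _ => Finset.mem_univ _]
    refine Finset.sum_congr rfl fun i _ => ?_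
    by_cases hi : ∃ y ∈ B, c y = i
    · rw [if_pos (by simpa [f] using hi), ← hsize i, ← Set.ncard_coe_finset]
      congr 1
      ext z
      simp only [Finset.coe_filter, Set.Finite.mem_toFinset, Set.mem_ofPred_eq]
      constructor
      · exact fun hz => ⟨hBY hz.1, hz.2⟩
      · rintro ⟨hz, rfl⟩
        obtain ⟨y, hy, hy'⟩ := hi
        exact ⟨hsat y hy z hz hy', rfl⟩
    · rw [if_neg (by simpa [f] using hi), Finset.card_eq_zero, Finset.filter_eq_empty_iff]
      intro z hz hc
      exact hi ⟨z, (Set.Finite.mem_toFinset _).mp hz, hc⟩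
  have hx : f (c x) = true := by simpa [f] using ⟨x, MulAction.mem_orbit_self x, rfl⟩
  rcases harith f (hsum ▸ Dvd.intro _ hcard) hx with h1 | h1
  · exfalso
    rw [← hsum, Set.ncard_eq_one] at h1
    obtain ⟨a, ha⟩ := h1
    refine hH.not_ge fun g hg => ?_
    have hgB : g • x ∈ B := ⟨⟨g, hg⟩, rfl⟩
    have hxB : x ∈ B := MulAction.mem_orbit_self x
    rw [ha, Set.mem_singleton_iff] at hgB hxB
    exact MulAction.mem_stabilizer_iff.mpr (hgB.trans hxB.symm)
  · rw [← hsum] at h1
    rw [h1] at hcard
    exact Subgroup.index_eq_one.mp ((Nat.mul_eq_left (by omega)).mp hcard)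

end Cfsg.Agent.M24Geo
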